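import Cfsg.Agent.H286.EP.CertSeven
import Cfsg.Agent.H286.CS.PList
import Cfsg.Agent.H957.Bridge

/-!
# Polynomials in an element of order 7 of `Ω₈⁺(q)` (helper286, S3499-IV)
-/

set_option autoImplicit false
set_option linter.unusedSectionVars false

namespace Cfsg.Agent.H286.EP

open Module QuadraticMap Matrix
open Cfsg.Agent.LieClassical.OmegaReindex Cfsg.Agent.LieClassical.OmegaCenter

section adj

variable {F : Type*} [Field F] {ι : Type} [Fintype ι] [DecidableEq ι] {Q : QuadraticForm F (ι → F)}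
  {z : Matrix ι ι F}

theorem polar_isom (hz : ∀ u, Q (z *ᵥ u) = Q u) (u v : ι → F) : polar Q (z *ᵥ u) (z *ᵥ v) = polar Q u v := by
  simp only [polar]
  rw [← Matrix.mulVec_add, hz, hz, hz]

theorem polar_adj (hz7 : z ^ 7 = 1) (hz : ∀ u, Q (z *ᵥ u) = Q u) (u v : ι → F) :
    polar Q (z *ᵥ u) v = polar Q u (z ^ 6 *ᵥ v) := by
  have h1 : z *ᵥ (z ^ 6 *ᵥ v) = v := by
    rw [Matrix.mulVec_mulVec, ← pow_succ', hz7, Matrix.one_mulVec]
  conv_lhs => rw [← h1]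
  exact polar_isom hz _ _

theorem polar_pow (hz7 : z ^ 7 = 1) (hz : ∀ u, Q (z *ᵥ u) = Q u) (i : ℕ) :
    ∀ u v : ι → F, polar Q (z ^ i *ᵥ u) v = polar Q u ((z ^ 6) ^ i *ᵥ v) := by
  induction i with
  | zero => intro u v; rw [pow_zero, pow_zero, Matrix.one_mulVec, Matrix.one_mulVec]
  | succ i ih =>
    intro u v
    rw [pow_succ', ← Matrix.mulVec_mulVec, polar_adj hz7 hz, ih, Matrix.mulVec_mulVec, ← pow_succ]

theorem polar_ev (hz7 : z ^ 7 = 1) (hz : ∀ u, Q (z *ᵥ u) = Q u) (θ : F) (a : Fin 7 → ℕ × ℕ) (u v : ι → F) :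
    polar Q (ev θ z a *ᵥ u) v = polar Q u (ev θ (z ^ 6) a *ᵥ v) := by
  simp only [ev]
  rw [Matrix.sum_mulVec, Matrix.sum_mulVec]
  have h1 : ∀ u v : ι → F, polar Q u v = polarBilin Q u v := fun u v => rfl
  rw [h1, h1, map_sum, LinearMap.sum_apply, map_sum]
  refine Finset.sum_congr rfl fun i _ => ?_
  rw [Matrix.smul_mulVec, Matrix.smul_mulVec, map_smul, LinearMap.smul_apply, map_smul, ← h1, ← h1,
    polar_pow hz7 hz]

theorem Q_ev (h2 : (2 : F) ≠ 0) (hz7 : z ^ 7 = 1) (hz : ∀ u, Q (z *ᵥ u) = Q u) (θ : F) (a : Fin 7 → ℕ × ℕ)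
    (ha : ev θ (z ^ 6) a * ev θ z a = 1) (u : ι → F) : Q (ev θ z a *ᵥ u) = Q u := by
  have h1 := polar_ev hz7 hz θ a u (ev θ z a *ᵥ u)
  rw [Matrix.mulVec_mulVec, ha, Matrix.one_mulVec] at h1
  have h3 : ∀ w : ι → F, polar Q w w = 2 * Q w := by
    intro w
    rw [QuadraticMap.polar_self, two_smul, two_mul]
  rw [h3, h3] at h1
  exact mul_left_cancel₀ h2 h1

end adj

section om

variable {F : Type*} [Field F] [Fintype F]

/-- the matrix of an element of `Ω` -/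
noncomputable def mt : ↥(Cfsg.Omega F ⇑(quadPlus 4 F)) →* Matrix (Fin 4 ⊕ Fin 4) (Fin 4 ⊕ Fin 4) F :=
  (Units.coeHom _).comp ((Subgroup.subtype _).comp (Subgroup.subtype _))

theorem mt_eq (g : ↥(Cfsg.Omega F ⇑(quadPlus 4 F))) : mt g = omegaMat g := rfl

theorem mt_inj {g h : ↥(Cfsg.Omega F ⇑(quadPlus 4 F))} (H : mt g = mt h) : g = h := omega_ext H

theorem mt_isom (g : ↥(Cfsg.Omega F ⇑(quadPlus 4 F))) (u : Fin 4 ⊕ Fin 4 → F) :
    quadPlus 4 F (mt g *ᵥ u) = quadPlus 4 F u := g.1.2 u u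

theorem center_iff (g : ↥(Cfsg.Omega F ⇑(quadPlus 4 F))) :
    g ∈ Subgroup.center (Cfsg.Omega F ⇑(quadPlus 4 F)) ↔ mt g = 1 ∨ mt g = -1 :=
  mem_center_omega_iff (quadPlus 4 F) quadPlus_nondegenerate (by rw [Cfsg.Agent.H286.CS.card_iota]; norm_num)
    (quadPlus_isotropic (m := 4) (F := F) (by norm_num)) g

theorem center_two : ∀ z ∈ Subgroup.center (Cfsg.Omega F ⇑(quadPlus 4 F)), z ^ 2 = 1 := by
  intro z hz
  apply mt_inj
  rw [map_pow, map_one, pow_two]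
  rcases (center_iff z).1 hz with h | h <;> rw [h]
  · rw [one_mul]
  · rw [neg_mul_neg, one_mul]

/-- the element with matrix `P(z)` -/
theorem exists_c0 (h2 : (2 : F) ≠ 0) {θ : F} {P : Fin 7 → ℕ × ℕ} {l t : ℕ} (hl : Odd l)
    (hc : CertM (Matrix (Fin 4 ⊕ Fin 4) (Fin 4 ⊕ Fin 4) F) θ P l t) {t0 : ↥(Cfsg.Omega F ⇑(quadPlus 4 F))}
    (ht : t0 ^ 7 = 1) : ∃ c0 : ↥(Cfsg.Omega F ⇑(quadPlus 4 F)), mt c0 = ev θ (mt t0) P := by
  have hz : mt t0 ^ 7 = 1 := by rw [← map_pow, ht, map_one]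
  obtain ⟨h1, h3, -⟩ := hc _ hz
  have h4 : ev θ (mt t0 ^ 6) P * ev θ (mt t0) P = 1 := mul_eq_one_comm.1 h3
  set g : GL (Fin 4 ⊕ Fin 4) F := ⟨ev θ (mt t0) P, ev θ (mt t0 ^ 6) P, h3, h4⟩ with hg
  have hgi : g ∈ Cfsg.isometryGroup F ⇑(quadPlus 4 F) := by
    intro u v
    exact Q_ev h2 hz (mt_isom t0) θ P h4 u
  have hgl : (⟨g, hgi⟩ : ↥(Cfsg.isometryGroup F ⇑(quadPlus 4 F))) ^ l = 1 := by
    apply Subtype.ext
    apply Units.ext
    rw [SubmonoidClass.coe_pow, Units.val_pow_eq_pow_val]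
    exact h1
  have hm := Cfsg.Agent.H957.mem_Omega_of_odd (quadPlus 4 F) quadPlus_nondegenerate (Or.inr (by
    rw [Cfsg.Agent.H286.CS.card_iota]; norm_num)) hl _ hgl
  exact ⟨⟨_, hm⟩, rfl⟩

variable {θ : F} {P : Fin 7 → ℕ × ℕ} {l t : ℕ} (hc : CertM (Matrix (Fin 4 ⊕ Fin 4) (Fin 4 ⊕ Fin 4) F) θ P l t)
  {t0 c0 : ↥(Cfsg.Omega F ⇑(quadPlus 4 F))} (ht : t0 ^ 7 = 1) (hc0 : mt c0 = ev θ (mt t0) P)

include hc ht hc0

theorem c0_pow : c0 ^ l = 1 := by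
  apply mt_inj
  rw [map_pow, hc0, map_one]
  exact (hc _ (by rw [← map_pow, ht, map_one])).1

omit hc ht in
theorem c0_comm : c0 * t0 = t0 * c0 := by
  apply mt_inj
  rw [map_mul, map_mul, hc0, ev_comm]

theorem c0_conj (k : ℕ) {u : ↥(Cfsg.Omega F ⇑(quadPlus 4 F))} (hu : u * t0 * u⁻¹ = t0 ^ 3 ^ k) :
    u * c0 * u⁻¹ = c0 ^ t ^ k := by
  have hz : mt t0 ^ 7 = 1 := by rw [← map_pow, ht, map_one]
  have key : ∀ k : ℕ, ev θ (mt t0 ^ 3 ^ k) P = ev θ (mt t0) P ^ t ^ k := by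
    intro k
    induction k with
    | zero => rw [pow_zero, pow_zero, pow_one, pow_one]
    | succ k ih =>
      rw [pow_succ 3 k, pow_mul, pow_succ t k, pow_mul, ← ih]
      exact (hc _ (by rw [← pow_mul, mul_comm, pow_mul, hz, one_pow])).2.2
  apply mt_inj
  rw [map_mul, map_mul, map_pow, hc0, ← key, ← map_pow, ← hu, map_mul, map_mul]
  refine (ev_conj ?_ ?_ P).symm
  · rw [← map_mul, mul_inv_cancel, map_one]
  · rw [← map_mul, inv_mul_cancel, map_one]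

omit hc hc0

/-- conjugation modulo the centre -/
theorem lift_conj {u v : ↥(Cfsg.Omega F ⇑(quadPlus 4 F))} (hv : v ^ 7 = 1)
    (h : ((u * t0 * u⁻¹ : ↥(Cfsg.Omega F ⇑(quadPlus 4 F))) : Cfsg.POmega F ⇑(quadPlus 4 F)) = (v : _)) :
    u * t0 * u⁻¹ = v := by
  have h1 : (u * t0 * u⁻¹)⁻¹ * v ∈ Subgroup.center (Cfsg.Omega F ⇑(quadPlus 4 F)) := QuotientGroup.eq.1 h
  set ζ := (u * t0 * u⁻¹)⁻¹ * v with hζ
  have h3 : v = (u * t0 * u⁻¹) * ζ := by rw [hζ, mul_inv_cancel_left]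
  have h4 : (u * t0 * u⁻¹) ^ 7 = 1 := by rw [conj_pow, ht, mul_one, mul_inv_cancel]
  have h5 : Commute (u * t0 * u⁻¹) ζ := Subgroup.mem_center_iff.1 h1 _
  have h6 : ζ ^ 7 = 1 := by
    rw [h3, h5.mul_pow, h4, one_mul] at hv
    exact hv
  have h7 : ζ = 1 := by
    have h8 := center_two ζ h1
    rw [show (7 : ℕ) = 2 * 3 + 1 from rfl, pow_succ, pow_mul, h8, one_pow, one_mul] at h6
    exact h6
  rw [h3, h7, mul_one]

end om

end Cfsg.Agent.H286.EP
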