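import Cfsg.Agent.H286.EP.DSeven
import Cfsg.Agent.H286.EP.LiftSeven
import Cfsg.Agent.S0296
import Cfsg.Agent.OddHalf.Table.OutOEight

/-!
# S3499-IV: the socle `Ω₈⁺(2)` in `PΩ₈⁺(q)`, `q = 9, 17, 23, 25` (helper286)

An element `y` of order 7 of the socle, `c ∉ A` in `F[y]` of prime order `l`, on which `N(⟨y⟩)` acts through the
characters `3 ↦ t` of `(Z/7)^*`: `exists_u` gives `u ∈ A ∩ A^c` acting on `⟨y⟩`, so `[u, c] ∈ A` generates `⟨c⟩`.
-/

set_option autoImplicit false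
set_option linter.unusedSectionVars false

namespace Cfsg.Agent.H286.EP

open Cfsg.Agent.H284 Cfsg.Agent.H419.EP Subgroup
open Cfsg.Agent.LieClassical.OmegaReindex

theorem card_autL : Nat.card (MulAut (Cfsg.POmega (ZMod 2) (Cfsg.quadFormPlus 4 (ZMod 2)))) = 1045094400 := by
  rw [Cfsg.Agent.OddHalf.Table.OutOEight.card_aut (ZMod.card 2), card_L]

theorem card_A_dvd {Q : Type*} [Group Q] {A : Subgroup Q}
    (hsoc : HasSoc A (Cfsg.POmega (ZMod 2) (Cfsg.quadFormPlus 4 (ZMod 2)))) : Nat.card A ∣ 1045094400 := by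
  obtain ⟨f, hf⟩ := hsoc.exists_hom
  rw [← card_autL]
  exact Subgroup.card_dvd_of_injective f hf

section

variable {Q : Type*} [Group Q] [Finite Q] {A N : Subgroup Q} {Γ : Subgroup (MulAut Q)}

/-- the abstract form -/
theorem kill_abs (h : EPT A Γ) (hNA : N ≤ A) (hNΓ : ∀ σ ∈ Γ, ∀ n ∈ N, σ n ∈ N)
    (f : ↥N ≃* Cfsg.POmega (ZMod 2) (Cfsg.quadFormPlus 4 (ZMod 2))) {y c : Q} (hyN : y ∈ N) (hy : orderOf y = 7)
    (hcy : c * y = y * c) (hcA : c ∉ A) {l t : ℕ} (hl : c ^ l = 1) (ht : 1 ≤ t)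
    (hco : ∀ k, 1 ≤ k → k ≤ 5 → Nat.Coprime (t ^ k - 1) l)
    (hconj : ∀ (u : Q) (k : ℕ), u * y * u⁻¹ = y ^ 3 ^ k → u * c * u⁻¹ = c ^ t ^ k) : False := by
  obtain ⟨u, hu, hu', k, hk1, hk2, e⟩ := exists_u h hNA hNΓ f hyN hy hcy hcA
  have h1 := hconj u k e
  apply hcA
  have h2 : c ^ (t ^ k - 1) ∈ A := by
    have h3 : c⁻¹ * u * c * u⁻¹ = c ^ (t ^ k - 1) := by
      have h4 : c⁻¹ * u * c * u⁻¹ = c⁻¹ * (u * c * u⁻¹) := by group
      rw [h4, h1]
      have h5 : t ^ k = (t ^ k - 1) + 1 := (Nat.sub_add_cancel (Nat.one_le_pow _ _ ht)).symm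
      conv_lhs => rw [h5, pow_succ']
      rw [inv_mul_cancel_left]
    rw [← h3]
    exact A.mul_mem hu' (A.inv_mem hu)
  have h6 : (t ^ k - 1).Coprime (orderOf c) :=
    Nat.Coprime.coprime_dvd_right (orderOf_dvd_of_pow_eq_one hl) (hco k hk1 hk2)
  obtain ⟨m, hm⟩ := exists_pow_eq_self_of_coprime h6
  rw [← hm]
  exact A.pow_mem h2 m

variable {F : Type*} [Field F] [Fintype F]

/-- with the lifts to `Ω₈⁺(q)` -/
theorem kill_core (h : EPT A Γ) (hNA : N ≤ A) (hNΓ : ∀ σ ∈ Γ, ∀ n ∈ N, σ n ∈ N)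
    (f : ↥N ≃* Cfsg.POmega (ZMod 2) (Cfsg.quadFormPlus 4 (ZMod 2)))
    (e : Q ≃* Cfsg.POmega F ⇑(quadPlus 4 F)) {y : Q} (hyN : y ∈ N) (hy : orderOf y = 7)
    {t0 c0 : ↥(Cfsg.Omega F ⇑(quadPlus 4 F))} (ht0 : t0 ^ 7 = 1) (hty : (t0 : Cfsg.POmega F ⇑(quadPlus 4 F)) = e y)
    {θ : F} {P : Fin 7 → ℕ × ℕ} {l t : ℕ} (hc : CertM (Matrix (Fin 4 ⊕ Fin 4) (Fin 4 ⊕ Fin 4) F) θ P l t)
    (hc0 : mt c0 = ev θ (mt t0) P) (ht : 1 ≤ t) (hco : ∀ k, 1 ≤ k → k ≤ 5 → Nat.Coprime (t ^ k - 1) l)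
    (hcA : e.symm (c0 : Cfsg.POmega F ⇑(quadPlus 4 F)) ∉ A) : False := by
  set c : Q := e.symm (c0 : Cfsg.POmega F ⇑(quadPlus 4 F)) with hcd
  have hec : e c = (c0 : Cfsg.POmega F ⇑(quadPlus 4 F)) := by rw [hcd, MulEquiv.apply_symm_apply]
  refine kill_abs h hNA hNΓ f hyN hy (c := c) ?_ hcA (l := l) (t := t) ?_ ht hco ?_
  · apply e.injective
    rw [map_mul, map_mul, hec, ← hty, ← QuotientGroup.mk_mul, ← QuotientGroup.mk_mul, c0_comm hc0]
  · apply e.injective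
    rw [map_pow, hec, ← QuotientGroup.mk_pow, c0_pow hc ht0 hc0, map_one]
    rfl
  · intro u k hu
    obtain ⟨u0, hu0⟩ := QuotientGroup.mk_surjective (e u)
    have h1 : u0 * t0 * u0⁻¹ = t0 ^ 3 ^ k := by
      apply lift_conj ht0
      · rw [← pow_mul, mul_comm, pow_mul, ht0, one_pow]
      · rw [QuotientGroup.mk_mul, QuotientGroup.mk_mul, QuotientGroup.mk_inv, QuotientGroup.mk_pow, hu0, hty,
          ← map_mul, ← map_inv, ← map_mul, hu, map_pow]
    have h2 := c0_conj hc ht0 hc0 k h1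
    apply e.injective
    rw [map_mul, map_mul, map_inv, map_pow, hec, ← hu0, ← QuotientGroup.mk_mul, ← QuotientGroup.mk_inv,
      ← QuotientGroup.mk_mul, h2, QuotientGroup.mk_pow]

/-- a certificate of prime order `l` not dividing `|Aut(Ω₈⁺(2))|` -/
theorem kill_cert (h : EPT A Γ) (hsoc : HasSoc A (Cfsg.POmega (ZMod 2) (Cfsg.quadFormPlus 4 (ZMod 2))))
    (h2 : (2 : F) ≠ 0) (e : Q ≃* Cfsg.POmega F (Cfsg.quadFormPlus 4 F)) {θ : F} {P : Fin 7 → ℕ × ℕ} {l t : ℕ}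
    (hl : l.Prime) (hlo : Odd l) (hlA : ¬ l ∣ 1045094400)
    (hc : CertM (Matrix (Fin 4 ⊕ Fin 4) (Fin 4 ⊕ Fin 4) F) θ P l t)
    (hne : ∀ z : Matrix (Fin 4 ⊕ Fin 4) (Fin 4 ⊕ Fin 4) F, z ^ 7 = 1 → ev θ z P = 1 → z = 1) (ht : 1 ≤ t)
    (hco : ∀ k, 1 ≤ k → k ≤ 5 → Nat.Coprime (t ^ k - 1) l) : False := by
  have h7 : Fact (Nat.Prime 7) := ⟨by norm_num⟩
  have hAd := card_A_dvd hsoc
  obtain ⟨N, hNA, hN, hC, ⟨f⟩⟩ := hsoc
  have hNs : IsSimpleGroup ↥N := by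
    haveI := Cfsg.Agent.S0296.result (F := ZMod 2) 4 le_rfl
    exact f.isSimpleGroup
  have hNΓ := soc_inv h hNA hN hC hNs
  have hNc : Nat.card ↥N = 174182400 := by rw [Nat.card_congr f.toEquiv, card_L]
  rw [← coe_quadPlus] at e
  obtain ⟨⟨y, hyN⟩, hy⟩ := exists_prime_orderOf_dvd_card' (G := ↥N) 7 (by rw [hNc]; norm_num)
  rw [Subgroup.orderOf_mk] at hy
  have hy7 : (e y) ^ 7 = 1 := by rw [← map_pow, ← hy, pow_orderOf_eq_one, map_one]
  obtain ⟨t0, hty, ht0⟩ := Cfsg.Agent.H286.CS.exists_lift center_two (r := 7) (by decide) (e y) hy7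
  obtain ⟨c0, hc0⟩ := exists_c0 h2 hlo hc ht0
  refine kill_core h hNA hNΓ f e hyN hy ht0 hty hc hc0 ht hco ?_
  intro hcA
  set c : Q := e.symm (c0 : Cfsg.POmega F ⇑(quadPlus 4 F)) with hcd
  have hcl : c ^ l = 1 := by
    apply e.injective
    rw [map_pow, hcd, MulEquiv.apply_symm_apply, ← QuotientGroup.mk_pow, c0_pow hc ht0 hc0, map_one]
    rfl
  rcases (Nat.dvd_prime hl).1 (orderOf_dvd_of_pow_eq_one hcl) with h1 | h1
  · rw [orderOf_eq_one_iff, hcd, map_eq_one_iff e.symm e.symm.injective] at h1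
    have h3 := (QuotientGroup.eq_one_iff c0).1 h1
    have h4 := center_two _ h3
    have h5 := c0_pow hc ht0 hc0
    obtain ⟨k, rfl⟩ := hlo
    rw [pow_succ, pow_mul, h4, one_pow, one_mul] at h5
    rw [h5, map_one] at hc0
    have h6 := hne (mt t0) (by rw [← map_pow, ht0, map_one]) hc0.symm
    have h8 : t0 = 1 := mt_inj (by rw [h6, map_one])
    rw [h8] at hty
    have h9 : y = 1 := by
      apply e.injective
      rw [← hty, map_one]
      rfl
    rw [h9, orderOf_one] at hy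
    norm_num at hy
  · apply hlA
    refine Dvd.dvd.trans ?_ hAd
    have h3 : orderOf (⟨c, hcA⟩ : ↥A) = l := by rw [Subgroup.orderOf_mk]; exact h1
    rw [← h3]
    exact orderOf_dvd_natCard _

theorem char_of {p e : ℕ} (hp : p.Prime) (he : e ≠ 0) (hF : Fintype.card F = p ^ e) : ((p : ℕ) : F) = 0 := by
  have h1 : ((Fintype.card F : ℕ) : F) = 0 := Nat.cast_card_eq_zero F
  rw [hF] at h1
  push_cast at h1
  exact pow_eq_zero_iff he |>.1 h1

theorem two_ne {p : ℕ} (hp : ((p : ℕ) : F) = 0) (hodd : Odd p) : (2 : F) ≠ 0 := by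
  intro h
  obtain ⟨k, rfl⟩ := hodd
  push_cast at hp
  rw [h, zero_mul, zero_add] at hp
  exact one_ne_zero hp

/-- `q = 17` -/
theorem kill_seventeen (h : EPT A Γ) (hsoc : HasSoc A (Cfsg.POmega (ZMod 2) (Cfsg.quadFormPlus 4 (ZMod 2))))
    (hF : Fintype.card F = 17) (e : Q ≃* Cfsg.POmega F (Cfsg.quadFormPlus 4 F)) : False := by
  have hp : ((17 : ℕ) : F) = 0 := char_of (p := 17) (e := 1) (by norm_num) one_ne_zero (by rw [hF]; norm_num)
  have hθ : (0 : F) * 0 = ((0 : ℕ) : F) := by simp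
  refine kill_cert h hsoc (two_ne hp (by decide)) e (θ := 0) (P := PSeventeen) (l := 13) (t := 4) (by norm_num)
    (by decide) (by norm_num) (certSeventeen hp hθ) (fun z hz => neSeventeen hp hθ hz) (by norm_num) ?_
  intro k h1 h2
  interval_cases k <;> norm_num

/-- `q = 23` -/
theorem kill_twentythree (h : EPT A Γ) (hsoc : HasSoc A (Cfsg.POmega (ZMod 2) (Cfsg.quadFormPlus 4 (ZMod 2))))
    (hF : Fintype.card F = 23) (e : Q ≃* Cfsg.POmega F (Cfsg.quadFormPlus 4 F)) : False := by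
  have hp : ((23 : ℕ) : F) = 0 := char_of (p := 23) (e := 1) (by norm_num) one_ne_zero (by rw [hF]; norm_num)
  have hθ : (0 : F) * 0 = ((0 : ℕ) : F) := by simp
  refine kill_cert h hsoc (two_ne hp (by decide)) e (θ := 0) (P := PTwentyThree) (l := 79) (t := 24) (by norm_num)
    (by decide) (by norm_num) (certTwentyThree hp hθ) (fun z hz => neTwentyThree hp hθ hz) (by norm_num) ?_
  intro k h1 h2
  interval_cases k <;> norm_num

/-- `2` is a square -/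
theorem exists_sqrt (h2 : (2 : F) ≠ 0) {m : ℕ} (hF : Fintype.card F / 2 = m) (hm : (2 : F) ^ m = 1) :
    ∃ θ : F, θ * θ = ((2 : ℕ) : F) := by
  have hr : ringChar F ≠ 2 := by
    intro h
    apply h2
    have h1 : ((ringChar F : ℕ) : F) = 0 := ringChar.Nat.cast_ringChar
    rw [h] at h1
    exact_mod_cast h1
  have h3 : IsSquare (2 : F) := by
    rw [FiniteField.isSquare_iff hr h2, hF]
    exact hm
  obtain ⟨θ, hθ⟩ := h3
  exact ⟨θ, by rw [← hθ]; norm_num⟩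

/-- `q = 9` -/
theorem kill_nine (h : EPT A Γ) (hsoc : HasSoc A (Cfsg.POmega (ZMod 2) (Cfsg.quadFormPlus 4 (ZMod 2))))
    (hF : Fintype.card F = 9) (e : Q ≃* Cfsg.POmega F (Cfsg.quadFormPlus 4 F)) : False := by
  have hp : ((3 : ℕ) : F) = 0 := char_of (p := 3) (e := 2) (by norm_num) two_ne_zero (by rw [hF]; norm_num)
  obtain ⟨θ, hθ⟩ := exists_sqrt (F := F) (m := 4) (two_ne hp (by decide)) (by rw [hF]) (by
    push_cast at hp
    linear_combination 5 * hp)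
  refine kill_cert h hsoc (two_ne hp (by decide)) e (θ := θ) (P := PNine) (l := 13) (t := 10) (by norm_num)
    (by decide) (by norm_num) (certNine hp hθ) (fun z hz => neNine hp hθ hz) (by norm_num) ?_
  intro k h1 h2
  interval_cases k <;> norm_num

/-- `q = 25` -/
theorem kill_twentyfive (h : EPT A Γ) (hsoc : HasSoc A (Cfsg.POmega (ZMod 2) (Cfsg.quadFormPlus 4 (ZMod 2))))
    (hF : Fintype.card F = 25) (e : Q ≃* Cfsg.POmega F (Cfsg.quadFormPlus 4 F)) : False := by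
  have hp : ((5 : ℕ) : F) = 0 := char_of (p := 5) (e := 2) (by norm_num) two_ne_zero (by rw [hF]; norm_num)
  obtain ⟨θ, hθ⟩ := exists_sqrt (F := F) (m := 12) (two_ne hp (by decide)) (by rw [hF]) (by
    push_cast at hp
    linear_combination 819 * hp)
  refine kill_cert h hsoc (two_ne hp (by decide)) e (θ := θ) (P := PTwentyFive) (l := 31) (t := 6) (by norm_num)
    (by decide) (by norm_num) (certTwentyFive hp hθ) (fun z hz => neTwentyFive hp hθ hz) (by norm_num) ?_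
  intro k h1 h2
  interval_cases k <;> norm_num

end

end Cfsg.Agent.H286.EP
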