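import Cfsg.Agent.KFacts.ChevTwoSysInst
import Cfsg.Agent.KFacts.RgdFiltChev
import Cfsg.Agent.KFacts.RgdSyl
import Cfsg.Agent.Involutions.BaerSuzuki
import Cfsg.Agent.Lib.Cores

/-!
# Subgroups of `D₄(2)` containing `[U, U]`

`Y = chevD4.group K`, `K` the field with two elements, `U` the standard Sylow 2-subgroup.

* `top_of` : `⟨[U,U], x_{-h}⟩ = Y`;
* `core_ne` : a proper subgroup `M ≥ [U,U]` has `O_2(M) ≠ 1`;
* `sylow_le` : if `N(O_2(M)) ≤ M`, `O_2(M) ≠ 1`, then `M` contains a Sylow 2-subgroup.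
-/

set_option autoImplicit false
set_option linter.unusedSectionVars false

namespace Cfsg.Agent.H286.EP

open CoxeterSystem Cfsg.Agent.ChevalleyStructure.CoxeterGeom Cfsg.Agent.Tits.Roots Cfsg.Agent.Tits.Core
  Cfsg.Agent.Tits.RootComb Cfsg.Agent.Nodes.Comb Cfsg.Agent.Nodes.Reps Cfsg.Agent.Nodes.BNOf
  Cfsg.Agent.Nodes.StabComb Cfsg.Agent.Nodes.Bruhat Cfsg.Agent.Nodes.LeviDec
open Cfsg.Lie Cfsg.Agent.ChevalleyStructure Cfsg.Agent.ChevalleyStructure.Elts
  Cfsg.Agent.ChevalleyStructure.RootVec Cfsg.Agent.ChevalleyStructure.RootVecTab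
  Cfsg.Agent.ChevalleyStructure.NPerm Cfsg.Agent.ChevalleyStructure.CoxeterGeomTypes
open Cfsg.Agent.Nodes Cfsg.Agent.Nodes.RGDChev Cfsg.Agent.Nodes.Coroot Cfsg.Agent.KFacts.ChevTwo
  Cfsg.Agent.KFacts.ChevTwoInst Cfsg.Agent.KFacts.ChevTwoTab
open scoped commutatorElement

/-! ### the root table -/

theorem hp4 : IsType chevD4 4 coxeterD4 := by simp [IsType, typeList]

/-- `(r, s, v)` : `v = r + s`, the Cartan integers are `-1` -/
def relOK (r s v : ℕ) : Bool :=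
  decide (r < 24 ∧ s < 24 ∧ v < 24 ∧ vec chevD4 4 v = vec chevD4 4 r + vec chevD4 4 s ∧
    carB chevD4 s r = -1 ∧ carB chevD4 r s = -1)

theorem nroots4 : chevD4.nroots = 24 := by decide +kernel

/-- the chain generating all root elements from those of height `≥ 2` and the lowest one -/
theorem chain {P : ℕ → Prop} (hP : ∀ r s v, relOK r s v = true → P r → P s → P v)
    (h0 : ∀ r ∈ [15, 16, 17, 19, 20, 21, 22, 23, 0], P r) : ∀ r, r < 24 → P r := by
  have h15 : P 15 := h0 15 (by simp)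
  have h16 : P 16 := h0 16 (by simp)
  have h17 : P 17 := h0 17 (by simp)
  have h19 : P 19 := h0 19 (by simp)
  have h20 : P 20 := h0 20 (by simp)
  have h21 : P 21 := h0 21 (by simp)
  have h22 : P 22 := h0 22 (by simp)
  have h23 : P 23 := h0 23 (by simp)
  have h00 : P 0 := h0 0 (by simp)
  have h2 : P 2 := hP 15 0 2 (by decide +kernel) h15 h00
  have h3 : P 3 := hP 16 0 3 (by decide +kernel) h16 h00
  have h5 : P 5 := hP 15 3 5 (by decide +kernel) h15 h3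
  have h4 : P 4 := hP 17 0 4 (by decide +kernel) h17 h00
  have h6 : P 6 := hP 19 0 6 (by decide +kernel) h19 h00
  have h10 : P 10 := hP 15 6 10 (by decide +kernel) h15 h6
  have h11 : P 11 := hP 16 6 11 (by decide +kernel) h16 h6
  have h14 : P 14 := hP 15 11 14 (by decide +kernel) h15 h11
  have h7 : P 7 := hP 20 0 7 (by decide +kernel) h20 h00
  have h12 : P 12 := hP 17 7 12 (by decide +kernel) h17 h7
  have h8 : P 8 := hP 21 0 8 (by decide +kernel) h21 h00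
  have h13 : P 13 := hP 17 8 13 (by decide +kernel) h17 h8
  have h18 : P 18 := hP 20 8 18 (by decide +kernel) h20 h8
  have h9 : P 9 := hP 22 0 9 (by decide +kernel) h22 h00
  have h1 : P 1 := hP 0 14 1 (by decide +kernel) h00 h14
  intro r hr
  interval_cases r <;> assumption

/-- the roots of height `≥ 2` are sums of positive roots -/
theorem height_two : ∀ v ∈ [15, 16, 17, 19, 20, 21, 22, 23], ∃ r s, 12 ≤ r ∧ 12 ≤ s ∧ relOK r s v = true := by
  intro v hv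
  simp only [List.mem_cons, List.not_mem_nil, or_false] at hv
  rcases hv with rfl | rfl | rfl | rfl | rfl | rfl | rfl | rfl
  · exact ⟨12, 14, by norm_num, by norm_num, by decide +kernel⟩
  · exact ⟨13, 14, by norm_num, by norm_num, by decide +kernel⟩
  · exact ⟨12, 16, by norm_num, by norm_num, by decide +kernel⟩
  · exact ⟨14, 18, by norm_num, by norm_num, by decide +kernel⟩
  · exact ⟨12, 19, by norm_num, by norm_num, by decide +kernel⟩
  · exact ⟨13, 19, by norm_num, by norm_num, by decide +kernel⟩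
  · exact ⟨12, 21, by norm_num, by norm_num, by decide +kernel⟩
  · exact ⟨14, 22, by norm_num, by norm_num, by decide +kernel⟩

theorem pos_iff : ∀ r, r < 24 → (0 ≤ vec chevD4 4 r ↔ 12 ≤ r) := by
  have h : ∀ r ∈ List.range 24, ((∀ i, 0 ≤ vec chevD4 4 r i) ↔ 12 ≤ r) := by decide +kernel
  exact fun r hr => h r (List.mem_range.2 hr)

/-- Cartan integers with the highest root -/
theorem cpr_high : ∀ r, r < 24 → r = 0 ∨ (∃ v, relOK 23 r v = true) ∨ 0 ≤ carB chevD4 23 r := by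
  have h : ∀ r ∈ List.range 24, r = 0 ∨ (∃ v ∈ List.range 24, relOK 23 r v = true) ∨
    0 ≤ carB chevD4 23 r := by decide +kernel
  intro r hr
  rcases h r (List.mem_range.2 hr) with h1 | ⟨v, -, h1⟩ | h1
  · exact Or.inl h1
  · exact Or.inr (Or.inl ⟨v, h1⟩)
  · exact Or.inr (Or.inr h1)

theorem cpr_high_pos : ∀ r, r < 24 → 12 ≤ r → 0 ≤ carB chevD4 23 r := by
  have h : ∀ r ∈ List.range 24, 12 ≤ r → 0 ≤ carB chevD4 23 r := by decide +kernel
  exact fun r hr => h r (List.mem_range.2 hr)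

/-! ### abstract lemmas -/

/-- If `O_2(M) ≤ V`, `N(O_2(M)) ≤ M ∩ P`, `V` a normal 2-subgroup of `P`, then `P ≤ M`. -/
theorem le_of_core {G : Type*} [Group G] [Finite G] {M P V C : Subgroup G}
    (hC : C = (Cfsg.pCore 2 ↥M).map M.subtype) (hN : Subgroup.normalizer (C : Set G) ≤ M)
    (hVp : IsPGroup 2 ↥V) (hPV : ∀ a ∈ P, ∀ v ∈ V, a * v * a⁻¹ ∈ V) (h1 : C ≤ V)
    (h2 : Subgroup.normalizer (C : Set G) ≤ P) : P ≤ M := by
  have hMN : M ≤ Subgroup.normalizer (C : Set G) := by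
    have h5 : (Cfsg.pCore 2 ↥M).Normal := Cfsg.Agent.Lib.Cores.pCore_normal 2
    have key : ∀ m ∈ M, ∀ c ∈ C, m * c * m⁻¹ ∈ C := by
      rw [hC]
      rintro m hm _ ⟨c, hc, rfl⟩
      exact ⟨⟨m, hm⟩ * c * ⟨m, hm⟩⁻¹, h5.conj_mem c hc _, rfl⟩
    intro m hm
    rw [Subgroup.mem_normalizer_iff]
    intro c
    refine ⟨key m hm c, fun hc => ?_⟩
    have h6 := key m⁻¹ (M.inv_mem hm) _ hc
    have h7 : m⁻¹ * (m * c * m⁻¹) * m⁻¹⁻¹ = c := by group
    rwa [h7] at h6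
  have hinf : ∀ x ∈ M, x ∈ V → x ∈ C := by
    have h5 : ((M ⊓ V).subgroupOf M).Normal := ⟨by
      rintro ⟨x, hx⟩ hxV ⟨m, hm⟩
      rw [Subgroup.mem_subgroupOf] at hxV ⊢
      exact ⟨M.mul_mem (M.mul_mem hm hx) (M.inv_mem hm), hPV m (h2 (hMN hm)) x hxV.2⟩⟩
    have h6 : IsPGroup 2 ↥((M ⊓ V).subgroupOf M) :=
      (IsPGroup.to_le hVp inf_le_right).comap_of_injective M.subtype Subtype.val_injective
    have h7 := Cfsg.Agent.Lib.Cores.le_pCore h5 h6
    intro x hx hxV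
    rw [hC]
    exact ⟨⟨x, hx⟩, h7 (Subgroup.mem_subgroupOf.2 ⟨hx, hxV⟩), rfl⟩
  have hCV : C = V := by
    by_contra hcon
    obtain ⟨x, hx, hxC, hxN⟩ := Cfsg.Agent.Involutions.BaerSuzuki.exists_mem_normalizer_of_lt hVp
      (lt_of_le_of_ne h1 hcon)
    exact hxC (hinf x (hN hxN) hx)
  intro x hxP
  apply hN
  rw [hCV, Subgroup.mem_normalizer_iff]
  intro v
  refine ⟨hPV x hxP v, fun hv => ?_⟩
  have h6 := hPV x⁻¹ (inv_mem hxP) _ hv
  have h7 : x⁻¹ * (x * v * x⁻¹) * x⁻¹⁻¹ = v := by group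
  rwa [h7] at h6

/-- conjugation of a normal subgroup -/
theorem cj_normal {G : Type*} [Group G] {P V : Subgroup G} (h : P ≤ Subgroup.normalizer (V : Set G)) (g : G) :
    ∀ a ∈ Reps.cj g P, ∀ v ∈ Reps.cj g V, a * v * a⁻¹ ∈ Reps.cj g V := by
  intro a ha v hv
  rw [mem_cj] at ha hv ⊢
  have h3 := (Subgroup.mem_normalizer_iff.1 (h ha) _).1 hv
  have h4 : g⁻¹ * (a * v * a⁻¹) * g = g⁻¹ * a * g * (g⁻¹ * v * g) * (g⁻¹ * a * g)⁻¹ := by group
  rw [h4]
  exact h3

/-! ### the group -/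

variable (K : Type) [Field K] [Finite K] [CharP K 2]

/-- the root elements -/
noncomputable def z (r : ℕ) : ↥(chevD4.group K) := eg hp4 K (vec chevD4 4 r) 1

/-- the root groups -/
abbrev XX : (Fin 4 → ℤ) → Subgroup ↥(chevD4.group K) := fun x => (XV chevD4 4 K x).subgroupOf (chevD4.group K)

/-- the torus -/
abbrev TT : Subgroup ↥(chevD4.group K) := (chevD4.diagonalSubgroup K).subgroupOf (chevD4.group K)

/-- the Coxeter system -/
abbrev c4 : CoxeterSystem coxeterD4 coxeterD4.Group := coxeterD4.toCoxeterSystem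

/-- the standard Sylow 2-subgroup -/
def UU : Subgroup ↥(chevD4.group K) := RGD.Sup (XX K) (RGD.Pos c4 hp4.isCartan)

instance finite4 : Finite coxeterD4.Group := finite_W hp4 coxeterD4.toCoxeterSystem

theorem sys4 : Sys (rgd (K := K) hp4 c4 2) (eg hp4 K) := sys hp4 twoOK_D4 c4

theorem root4 {r : ℕ} (hr : r < 24) : IsRoot c4 hp4.isCartan (vec chevD4 4 r) :=
  isRoot_vec hp4 c4 (by rw [nroots4]; exact hr)

theorem cpr4 {r s : ℕ} (hr : r < 24) (hs : s < 24) :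
    cpr c4 hp4.isCartan (vec chevD4 4 s) (vec chevD4 4 r) = carB chevD4 r s := by
  rw [cpr_vec hp4 c4 (by rw [nroots4]; exact hr) s (by rw [nroots4]; exact hs), carB_eq]

theorem exists_vec {x : Fin 4 → ℤ} (hx : IsRoot c4 hp4.isCartan x) : ∃ r, r < 24 ∧ vec chevD4 4 r = x := by
  obtain ⟨r, hr, e⟩ := (isRoot_iff hp4 c4 x).1 hx
  exact ⟨r, by rw [nroots4] at hr; exact hr, e⟩

theorem z_sq {r : ℕ} (hr : r < 24) : z K r * z K r = 1 := (sys4 K).data.sq (root4 hr) 1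

theorem z_ne {r : ℕ} (hr : r < 24) : z K r ≠ 1 := (sys4 K).data.ne_one (root4 hr) one_ne_zero

theorem z_comm {r s v : ℕ} (h : relOK r s v = true) : ⁅z K r, z K s⁆ = z K v := by
  obtain ⟨hr, hs, hv, e, h1, h2⟩ := of_decide_eq_true h
  unfold z
  rw [(sys4 K).data.comm1 _ _ (root4 hr) (root4 hs) (by rw [cpr4 hs hr, h1]) (by rw [cpr4 hr hs, h2]), e, mul_one]

theorem z_comm0 {r s : ℕ} (hr : r < 24) (hs : s < 24) (h : 0 ≤ carB chevD4 s r) : z K r * z K s = z K s * z K r :=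
  (sys4 K).data.comm_of_nonneg (root4 hr) (root4 hs) (by rw [cpr4 hs hr]; exact h) 1 1

theorem z_mem_U {r : ℕ} (hr : r < 24) (h : 12 ≤ r) : z K r ∈ UU K :=
  RGD.le_Sup (S := RGD.Pos c4 hp4.isCartan) ⟨root4 hr, (pos_iff r hr).2 h⟩ ((sys4 K).mem (root4 hr) 1)

theorem z_mem_comm {r : ℕ} (hr : r ∈ [15, 16, 17, 19, 20, 21, 22, 23]) : z K r ∈ ⁅UU K, UU K⁆ := by
  obtain ⟨a, b, ha, hb, h⟩ := height_two r hr
  have h' := of_decide_eq_true h
  rw [← z_comm K h]
  exact Subgroup.commutator_mem_commutator (z_mem_U K h'.1 ha) (z_mem_U K h'.2.1 hb)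

variable {K} (hK : ∀ t : K, t = 0 ∨ t = 1)

include hK

theorem mem_X {r : ℕ} (hr : r < 24) {g : ↥(chevD4.group K)} (hg : g ∈ XX K (vec chevD4 4 r)) : g = 1 ∨ g = z K r := by
  obtain ⟨t, rfl⟩ := ((sys4 K).mem_X _ (root4 hr) g).1 hg
  rcases hK t with rfl | rfl
  · exact Or.inl ((sys4 K).data.zero (root4 hr))
  · exact Or.inr rfl

theorem top_of_mem {M : Subgroup ↥(chevD4.group K)} (hM : ∀ r, r < 24 → z K r ∈ M) : M = ⊤ := by
  rw [eq_top_iff, ← G1_eq_top (K := K) hp4 c4]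
  refine RGD.Sup_le fun x hx => ?_
  obtain ⟨r, hr, rfl⟩ := exists_vec hx
  intro g hg
  rcases mem_X hK hr hg with rfl | rfl
  · exact one_mem _
  · exact hM r hr

theorem top_of {M : Subgroup ↥(chevD4.group K)} (hM : ⁅UU K, UU K⁆ ≤ M) (h0 : z K 0 ∈ M) : M = ⊤ := by
  refine top_of_mem hK (chain (P := fun r => z K r ∈ M) ?_ ?_)
  · intro r s v h hr hs
    show z K v ∈ M
    rw [← z_comm K h]
    exact mul_mem (mul_mem (mul_mem hr hs) (inv_mem hr)) (inv_mem hs)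
  · intro r hr
    by_cases h : r = 0
    · rw [h]; exact h0
    · exact hM (z_mem_comm K (by simp at hr ⊢; omega))

/-- the torus is trivial -/
theorem torus_bot {t : ↥(chevD4.group K)} (ht : t ∈ TT K) : t = 1 := by
  obtain ⟨χ, hχ⟩ := HMatDiagAll.mem_torus.1 (HMatDiagAll.diagonalSubgroup_le_torus hp4.inList
    (Subgroup.mem_subgroupOf.1 ht))
  have h1 : IsUnit (Matrix.diagonal (Sum.elim (fun _ => (1 : K)) χ) : Matrix chevD4.Idx chevD4.Idx K) := by
    rw [← hχ]; exact Units.isUnit _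
  rw [Matrix.isUnit_diagonal, Pi.isUnit_iff] at h1
  have h2 : ∀ s, χ s = 1 := by
    intro s
    have h3 := (h1 (Sum.inr s)).ne_zero
    exact (hK (χ s)).resolve_left h3
  apply Subtype.ext
  apply Units.ext
  rw [hχ]
  show _ = (1 : Matrix chevD4.Idx chevD4.Idx K)
  rw [← Matrix.diagonal_one]
  congr 1
  funext i
  rcases i with i | i
  · rfl
  · exact h2 i

theorem B_le_U : RGD.B c4 hp4.isCartan (TT K) (XX K) ≤ UU K := by
  refine sup_le (fun t ht => ?_) le_rfl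
  rw [torus_bot hK ht]
  exact one_mem _

omit hK in
theorem U_pgroup : IsPGroup 2 ↥(UU K) := (rgd (K := K) hp4 c4 2).isPGroup_Upos

omit hK in
theorem U_index : ¬ 2 ∣ (UU K).index := by
  have h1 := Cfsg.Agent.KFacts.RgdSyl.not_dvd_relIndex (rgd (K := K) hp4 c4 2)
  rw [Cfsg.Agent.KFacts.RgdFilt.GG_eq_top (G1_eq_top hp4 c4), Subgroup.relIndex_top_right] at h1
  exact h1

/-- `x_h` is central in `U` -/
theorem z_cent {u : ↥(chevD4.group K)} (hu : u ∈ UU K) : u * z K 23 = z K 23 * u := by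
  have h1 : UU K ≤ Subgroup.centralizer ({z K 23} : Set ↥(chevD4.group K)) := by
    refine RGD.Sup_le fun x hx => ?_
    obtain ⟨r, hr, rfl⟩ := exists_vec hx.1
    intro g hg
    rw [Subgroup.mem_centralizer_singleton_iff]
    rcases mem_X hK hr hg with rfl | rfl
    · rw [one_mul, mul_one]
    · exact z_comm0 K hr (by norm_num) (cpr_high_pos r hr ((pos_iff r hr).1 hx.2))
  exact Subgroup.mem_centralizer_singleton_iff.1 (h1 hu)

omit hK in
theorem normalizes {u : ↥(chevD4.group K)} (hu : u ∈ UU K) {c : ↥(chevD4.group K)} (hc : c ∈ ⁅UU K, UU K⁆) :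
    u * c * u⁻¹ ∈ ⁅UU K, UU K⁆ := by
  have h1 : c ∈ UU K := Subgroup.commutator_le_self _ hc
  have h2 : u * c * u⁻¹ = ⁅u, c⁆ * c := by rw [commutatorElement_def]; group
  rw [h2]
  exact mul_mem (Subgroup.commutator_mem_commutator hu h1) hc

omit hK in
/-- two involutions whose product has 2-power order (copied from `H170.Fl.Ext`) -/
theorem isPGroup_pair {G : Type*} [Group G] {a b : G} (ha : a * a = 1) (hb : b * b = 1) {k : ℕ}
    (h : (a * b) ^ 2 ^ k = 1) : IsPGroup 2 (Subgroup.closure {a, b} : Subgroup G) := by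
  have hai : a⁻¹ = a := inv_eq_of_mul_eq_one_left ha
  have hbi : b⁻¹ = b := inv_eq_of_mul_eq_one_left hb
  have hconj : ∀ n : ℤ, a * (a * b) ^ n * a = (a * b) ^ (-n) := by
    intro n
    have h1 : a * (a * b) * a⁻¹ = (a * b)⁻¹ := by
      rw [mul_inv_rev, hai, hbi, ← mul_assoc, ha, one_mul]
    have h2 : a * (a * b) ^ n * a⁻¹ = (a * (a * b) * a⁻¹) ^ n := (conj_zpow).symm
    rw [h1, inv_zpow', hai] at h2
    exact h2
  have key : ∀ g ∈ Subgroup.closure {a, b},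
      (∃ n : ℤ, g = (a * b) ^ n) ∨ ∃ n : ℤ, g = a * (a * b) ^ n := by
    intro g hg
    induction hg using Subgroup.closure_induction with
    | mem x hx =>
      rcases hx with rfl | hx
      · exact Or.inr ⟨0, by rw [zpow_zero, mul_one]⟩
      · rw [Set.mem_singleton_iff] at hx
        subst hx
        exact Or.inr ⟨1, by rw [zpow_one, ← mul_assoc, ha, one_mul]⟩
    | one => exact Or.inl ⟨0, (zpow_zero _).symm⟩
    | mul x y _ _ hx hy =>
      rcases hx with ⟨n, rfl⟩ | ⟨n, rfl⟩ <;> rcases hy with ⟨m, rfl⟩ | ⟨m, rfl⟩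
      · exact Or.inl ⟨n + m, (zpow_add _ _ _).symm⟩
      · refine Or.inr ⟨-n + m, ?_⟩
        rw [zpow_add, ← hconj n, mul_assoc, mul_assoc, ← mul_assoc a a, ha, one_mul]
      · exact Or.inr ⟨n + m, by rw [zpow_add, mul_assoc]⟩
      · refine Or.inl ⟨-n + m, ?_⟩
        rw [zpow_add, ← hconj n]
        simp only [mul_assoc]
    | inv x _ hx =>
      rcases hx with ⟨n, rfl⟩ | ⟨n, rfl⟩
      · exact Or.inl ⟨-n, (zpow_neg _ _).symm⟩
      · refine Or.inr ⟨n, ?_⟩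
        rw [mul_inv_rev, ← zpow_neg, ← hconj n, hai, mul_assoc, ha, mul_one]
  intro ⟨g, hg⟩
  rcases key g hg with ⟨n, rfl⟩ | ⟨n, rfl⟩
  · refine ⟨k, Subtype.ext ?_⟩
    show ((a * b) ^ n) ^ 2 ^ k = 1
    rw [← zpow_natCast, ← zpow_mul, mul_comm, zpow_mul, zpow_natCast, h, one_zpow]
  · refine ⟨1, Subtype.ext ?_⟩
    show (a * (a * b) ^ n) ^ 2 ^ 1 = 1
    rw [pow_one, pow_two]
    have h1 : a * (a * b) ^ n * (a * (a * b) ^ n) = (a * (a * b) ^ n * a) * (a * b) ^ n := by group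
    rw [h1, hconj, ← zpow_add, neg_add_cancel, zpow_zero]

/-- the product of `x_h` and a root element `x_r`, `r ≠ -h`, has order dividing 4 -/
theorem pow_four {r : ℕ} (hr : r < 24) (h0 : r ≠ 0) : (z K 23 * z K r) ^ 4 = 1 := by
  have h23 := z_sq K (r := 23) (by norm_num)
  have hrr := z_sq K hr
  rcases cpr_high r hr with h1 | ⟨v, h1⟩ | h1
  · exact absurd h1 h0
  · have h2 := z_comm K h1
    have hv := (of_decide_eq_true h1).2.2.1
    have i1 : (z K 23)⁻¹ = z K 23 := inv_eq_of_mul_eq_one_left h23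
    have i2 : (z K r)⁻¹ = z K r := inv_eq_of_mul_eq_one_left hrr
    rw [commutatorElement_def, i1, i2] at h2
    have h3 : (z K 23 * z K r) ^ 4 = (z K 23 * z K r * z K 23 * z K r) * (z K 23 * z K r * z K 23 * z K r) := by
      simp only [pow_succ, pow_zero, one_mul, mul_assoc]
    rw [h3, h2, z_sq K hv]
  · have h2 := z_comm0 K hr (by norm_num) h1
    have h3 : (z K 23 * z K r) ^ 4 = (z K 23 * (z K r * z K 23) * z K r) * (z K 23 * (z K r * z K 23) * z K r) := by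
      simp only [pow_succ, pow_zero, one_mul, mul_assoc]
    have h4 : z K 23 * (z K 23 * z K r) * z K r = 1 := by
      calc z K 23 * (z K 23 * z K r) * z K r = (z K 23 * z K 23) * (z K r * z K r) := by group
        _ = 1 := by rw [h23, hrr, one_mul]
    rw [h3, h2, h4, one_mul]

omit hK in
theorem cj_mem {G : Type*} [Group G] {H : Subgroup G} {g x : G} (h : x ∈ H) : g * x * g⁻¹ ∈ Reps.cj g H :=
  conj_mem_cj.2 h

/-- the conjugates of `x_h` -/
theorem conj_high (g : ↥(chevD4.group K)) : ∃ b ∈ UU K, ∃ r, r < 24 ∧ g * z K 23 * g⁻¹ = b * z K r * b⁻¹ := by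
  have R := rgd (K := K) hp4 c4 2
  have hg : g ∈ GG c4 hp4.isCartan (TT K) (XX K) := by
    rw [Cfsg.Agent.KFacts.RgdFilt.GG_eq_top (G1_eq_top hp4 c4)]
    exact Subgroup.mem_top g
  obtain ⟨w, b₁, hb₁, k, hk, b₂, hb₂, rfl⟩ := (mem_GG R).1 hg
  have h1 := z_cent hK (B_le_U hK hb₂)
  have h2 : b₁ * k * b₂ * z K 23 * (b₁ * k * b₂)⁻¹ = b₁ * (k * z K 23 * k⁻¹) * b₁⁻¹ := by
    calc b₁ * k * b₂ * z K 23 * (b₁ * k * b₂)⁻¹ = b₁ * k * (b₂ * z K 23) * b₂⁻¹ * k⁻¹ * b₁⁻¹ := by group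
      _ = b₁ * (k * z K 23 * k⁻¹) * b₁⁻¹ := by rw [h1]; group
  have h3 := R.conj_mem hk (root4 (r := 23) (by norm_num)) ((sys4 K).mem (root4 (r := 23) (by norm_num)) 1)
  obtain ⟨r, hr, e⟩ := exists_vec ((root4 (r := 23) (by norm_num)).act w)
  rw [← e] at h3
  refine ⟨b₁, B_le_U hK hb₁, r, hr, ?_⟩
  rw [h2]
  rcases mem_X hK hr h3 with h4 | h4
  · exfalso
    apply z_ne K (r := 23) (by norm_num)
    have h5 : k * z K 23 * k⁻¹ = 1 := h4
    rw [mul_inv_eq_one] at h5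
    exact mul_eq_left.1 h5
  · have h5 : k * z K 23 * k⁻¹ = z K r := h4
    rw [h5]

/-- **(A)** a proper subgroup `M ≥ [U,U]` has `O_2(M) ≠ 1`. -/
theorem core_ne {M : Subgroup ↥(chevD4.group K)} (hM : ⁅UU K, UU K⁆ ≤ M) (hne : M ≠ ⊤) : Cfsg.pCore 2 ↥M ≠ ⊥ := by
  intro hbot
  have h23 := z_sq K (r := 23) (by norm_num)
  have ht : z K 23 ∈ M := hM (z_mem_comm K (by simp))
  have hpair : ∀ g : ↥M, IsPGroup 2 (Subgroup.closure {(⟨z K 23, ht⟩ : ↥M), g * ⟨z K 23, ht⟩ * g⁻¹} : Subgroup ↥M) := by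
    rintro ⟨g, hg⟩
    obtain ⟨b, hb, r, hr, e⟩ := conj_high hK g
    by_cases hr0 : r = 0
    · subst hr0
      exfalso
      apply hne
      have h1 : Reps.cj b⁻¹ M = ⊤ := by
        refine top_of hK (fun c hc => ?_) ?_
        · rw [mem_cj, inv_inv]
          exact hM (normalizes hb hc)
        · rw [mem_cj, inv_inv, ← e]
          exact mul_mem (mul_mem hg ht) (inv_mem hg)
      rw [eq_top_iff]
      intro x _
      have h2 : b⁻¹ * x * b⁻¹⁻¹ ∈ Reps.cj b⁻¹ M := by rw [h1]; exact Subgroup.mem_top _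
      exact conj_mem_cj.1 h2
    · have h4 : (z K 23 * (g * z K 23 * g⁻¹)) ^ 4 = 1 := by
        have h5 : z K 23 * (g * z K 23 * g⁻¹) = b * (z K 23 * z K r) * b⁻¹ := by
          rw [e]
          have h6 : z K 23 * b = b * z K 23 := (z_cent hK hb).symm
          calc z K 23 * (b * z K r * b⁻¹) = (z K 23 * b) * z K r * b⁻¹ := by group
            _ = _ := by rw [h6]; group
        rw [h5, conj_pow, pow_four hK hr hr0, mul_one, mul_inv_cancel]
      refine isPGroup_pair (k := 2) (Subtype.ext h23) (Subtype.ext ?_) (Subtype.ext ?_)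
      · show g * z K 23 * g⁻¹ * (g * z K 23 * g⁻¹) = 1
        calc g * z K 23 * g⁻¹ * (g * z K 23 * g⁻¹) = g * (z K 23 * z K 23) * g⁻¹ := by group
          _ = 1 := by rw [h23]; group
      · exact h4
  have h1 := Cfsg.Agent.Involutions.BaerSuzuki.mem_pCore_of_conj_pairs (p := 2) (⟨z K 23, ht⟩ : ↥M) hpair
  rw [hbot, Subgroup.mem_bot] at h1
  exact z_ne K (r := 23) (by norm_num) (congrArg Subtype.val h1)

omit hK in
/-- **(B)** if `O_2(M) ≠ 1` and `N(O_2(M)) ≤ M` then `M` contains a conjugate of `U`. -/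
theorem sylow_le {M : Subgroup ↥(chevD4.group K)} (hne : (Cfsg.pCore 2 ↥M).map M.subtype ≠ ⊥)
    (hN : Subgroup.normalizer (((Cfsg.pCore 2 ↥M).map M.subtype : Subgroup ↥(chevD4.group K)) :
      Set ↥(chevD4.group K)) ≤ M) : ∃ g, Reps.cj g (UU K) ≤ M := by
  have hCp : IsPGroup 2 ↥((Cfsg.pCore 2 ↥M).map M.subtype) := (Cfsg.Agent.Lib.Cores.pCore_isPGroup 2).map _
  obtain ⟨g, J, -, h1, h2⟩ := Cfsg.Agent.KFacts.RgdBorelTits.borel_tits
    (Cfsg.Agent.KFacts.RgdFiltChev.filt (K := K) hp4 c4 2)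
    (Cfsg.Agent.KFacts.RgdFilt.GG_eq_top (G1_eq_top hp4 c4)) hCp hne
  have R := rgd (K := K) hp4 c4 2
  have hVp : IsPGroup 2 ↥(Reps.cj g (VJ c4 hp4.isCartan (XX K) J)) := (IsPGroup.to_le U_pgroup (VJ_le_U J)).map _
  have h3 := le_of_core rfl hN hVp (cj_normal (PJ_le_normalizer_VJ R J) g) h1 h2
  exact ⟨g, le_trans (Reps.cj_mono g (le_trans RGD.U_le_B B_le_PJ)) h3⟩

end Cfsg.Agent.H286.EP
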