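import Mathlib

/-!
# Counting lemmas for `A = N`
-/

set_option autoImplicit false

namespace Cfsg.Agent.H286.EP

open Subgroup

theorem card_cent_congr {G H : Type*} [Group G] [Group H] (f : G ≃* H) (y : G) :
    Nat.card ↥(centralizer ({y} : Set G)) = Nat.card ↥(centralizer ({f y} : Set H)) := by
  refine Nat.card_congr (f.toEquiv.subtypeEquiv fun g => ?_)
  rw [mem_centralizer_singleton_iff, mem_centralizer_singleton_iff]
  show g * y = y * g ↔ f g * f y = f y * f g
  rw [← map_mul, ← map_mul]
  exact f.injective.eq_iff.symm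

/-- the normaliser of a subgroup of prime order -/
theorem norm_card {G : Type*} [Group G] [Finite G] {p : ℕ} [hp : Fact p.Prime] {P : Subgroup G} (hP : Nat.card ↥P = p)
    {y : G} (hy : y ∈ P) (hy1 : y ≠ 1) :
    ∃ j, j ∣ p - 1 ∧ Nat.card ↥(normalizer (P : Set G)) = Nat.card ↥(centralizer ({y} : Set G)) * j := by
  have hPz : P = zpowers y := by
    symm
    refine Subgroup.eq_of_le_of_card_ge (zpowers_le.2 hy) ?_
    rw [hP, Nat.card_zpowers]
    have h1 : orderOf y ∣ p := by
      rw [← hP]
      have := orderOf_dvd_natCard (⟨y, hy⟩ : ↥P)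
      rwa [← Subgroup.orderOf_coe] at this
    rcases (Nat.dvd_prime hp.out).1 h1 with h2 | h2
    · exact absurd (orderOf_eq_one_iff.1 h2) hy1
    · exact h2.ge
  have hc : centralizer (P : Set G) = centralizer ({y} : Set G) := by
    rw [hPz, zpowers_eq_closure, centralizer_closure]
  have key := card_dvd_of_injective _ (QuotientGroup.kerLift_injective P.normalizerMonoidHom)
  have hcyc : IsCyclic ↥P := isCyclic_of_prime_card hP
  rw [normalizerMonoidHom_ker, ← index, hcyc.card_mulAut, hP, Nat.totient_prime hp.out] at key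
  refine ⟨_, key, ?_⟩
  rw [← hc, ← Subgroup.card_mul_index ((centralizer (P : Set G)).subgroupOf (normalizer (P : Set G)))]
  congr 1
  exact Nat.card_congr (subgroupOfEquivOfLe (centralizer_le_normalizer _)).toEquiv

/-- Frattini, orders -/
theorem frattini_card {G : Type*} [Group G] [Finite G] {p : ℕ} [hp : Fact p.Prime] {N : Subgroup G} [N.Normal]
    (P : Sylow p ↥N) : Nat.card ↥(normalizer (((P : Subgroup ↥N).map N.subtype : Subgroup G) : Set G)) =
      N.index * Nat.card ↥(normalizer ((P : Subgroup ↥N) : Set ↥N)) := by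
  set H := normalizer (((P : Subgroup ↥N).map N.subtype : Subgroup G) : Set G) with hH
  have h1 : H ⊔ N = ⊤ := Sylow.normalizer_sup_eq_top P
  have h2 : N.relIndex H = N.index := by
    rw [← relIndex_sup_right, h1, relIndex_top_right]
  have h3 : H.subgroupOf N = normalizer ((P : Subgroup ↥N) : Set ↥N) := by
    have hm : ∀ m : ↥N, (m : G) ∈ ((P : Subgroup ↥N).map N.subtype : Subgroup G) ↔ m ∈ (P : Subgroup ↥N) := by
      intro m
      constructor
      · rintro ⟨m', hm', e⟩
        have : m' = m := Subtype.ext e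
        rwa [← this]
      · intro hm
        exact ⟨m, hm, rfl⟩
    ext n
    rw [mem_subgroupOf, hH, mem_normalizer_iff, mem_normalizer_iff]
    constructor
    · intro h m
      rw [← hm, ← hm]
      exact h m
    · intro h x
      constructor
      · rintro ⟨m, hm', rfl⟩
        exact ⟨n * m * n⁻¹, (h m).1 hm', rfl⟩
      · rintro ⟨m, hm', e⟩
        have hx : x = ((n⁻¹ * m * n : ↥N) : G) := by
          have e' : (m : G) = (n : G) * x * (n : G)⁻¹ := e
          push_cast
          rw [e']
          group
        rw [hx]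
        refine ⟨n⁻¹ * m * n, (h _).2 ?_, rfl⟩
        have : n * (n⁻¹ * m * n) * n⁻¹ = m := by group
        rw [this]; exact hm'
  have h4 : Nat.card ↥(N.subgroupOf H) = Nat.card ↥(H.subgroupOf N) := by
    have e1 : Nat.card ↥(N.subgroupOf H) = Nat.card ↥((N.subgroupOf H).map H.subtype) :=
      Nat.card_congr ((N.subgroupOf H).equivMapOfInjective _ H.subtype_injective).toEquiv
    have e2 : Nat.card ↥(H.subgroupOf N) = Nat.card ↥((H.subgroupOf N).map N.subtype) :=
      Nat.card_congr ((H.subgroupOf N).equivMapOfInjective _ N.subtype_injective).toEquiv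
    rw [e1, e2, subgroupOf_map_subtype, subgroupOf_map_subtype, inf_comm]
  rw [← Subgroup.card_mul_index (N.subgroupOf H), h4, h3, mul_comm]
  congr 1

end Cfsg.Agent.H286.EP
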