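import Cfsg.Agent.H286.EP.Glob
import Cfsg.Agent.H286.EP.Num
import Cfsg.Agent.H286.CS.PTor
import Cfsg.Agent.H803.RowOmega
import Cfsg.Agent.H419.EP.Soc
import Cfsg.Agent.S0293
import Cfsg.Agent.S1082

/-!
# S3499-IV-L: the socle `Ω₈⁺(2)` in `PΩ₈⁺(3)` (task 5960)

`kill` : `EPT A Γ` with `soc A ≅ Ω₈⁺(2)` in `Q ≅ PΩ₈⁺(3)` is impossible: `A ≅ Ω₈⁺(2)` (the normaliser of a Sylow
7-subgroup), `|Q : A| = 28431 ≡ 3 mod 4`, `H286.EP.Glob.kill_of`.
-/

set_option autoImplicit false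
set_option linter.unusedSectionVars false

namespace Cfsg.Agent.H286.EP

open Cfsg.Agent.H284 Cfsg.Agent.H419.EP Subgroup

theorem card_L : Nat.card (Cfsg.POmega (ZMod 2) (Cfsg.quadFormPlus 4 (ZMod 2))) = 174182400 := by
  have h := Cfsg.Agent.S0293.result (F := ZMod 2) (q := 2) (ZMod.card 2) 4 (by norm_num)
  norm_num [Finset.prod_range_succ] at h
  exact h

theorem card_Q {F : Type*} [Field F] [Fintype F] (hF : Fintype.card F = 3) :
    Nat.card (Cfsg.POmega F (Cfsg.quadFormPlus 4 F)) = 4952179814400 := by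
  have h := Cfsg.Agent.S0293.result (F := F) (q := 3) hF 4 (by norm_num)
  norm_num [Finset.prod_range_succ] at h
  omega

theorem card_cent_L {y : Cfsg.POmega (ZMod 2) (Cfsg.quadFormPlus 4 (ZMod 2))} (hy : orderOf y = 7) :
    Nat.card ↥(centralizer ({y} : Set (Cfsg.POmega (ZMod 2) (Cfsg.quadFormPlus 4 (ZMod 2))))) = 7 := by
  have h := Cfsg.Agent.H286.CS.ptor (F := ZMod 2) (n := 4) le_rfl (by decide) (r := 7) (by norm_num) (by
    rw [ZMod.card]
    have : Fact (Nat.Prime 3) := ⟨by norm_num⟩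
    exact orderOf_eq_prime (by decide) (by decide)) hy
  rw [ZMod.card] at h
  norm_num at h
  exact h

theorem card_cent_Q {F : Type*} [Field F] [Fintype F] (hF : Fintype.card F = 3)
    {y : Cfsg.POmega F (Cfsg.quadFormPlus 4 F)} (hy : orderOf y = 7) :
    Nat.card ↥(centralizer ({y} : Set (Cfsg.POmega F (Cfsg.quadFormPlus 4 F)))) = 28 := by
  have : Fact (Nat.Prime 3) := ⟨by norm_num⟩
  have : CharP F 3 := charP_of_card_eq_prime hF
  have h := Cfsg.Agent.H286.CS.card_cent_sub (F := F) (n := 4) (p := 3) (f := 1) le_rfl (by rw [hF, pow_one]) le_rfl (r := 7)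
    (by norm_num) (by
      refine orderOf_eq_of_pow_and_pow_div_prime (by norm_num) (by decide) ?_
      intro p hp hpd
      have h1 : p ∈ Nat.primeFactors 6 := Nat.mem_primeFactors.2 ⟨hp, hpd, by norm_num⟩
      have h2 : Nat.primeFactors 6 = {2, 3} := by decide +kernel
      rw [h2, Finset.mem_insert, Finset.mem_singleton] at h1
      rcases h1 with rfl | rfl <;> decide) y hy
  norm_num at h
  omega

section

variable {Q : Type*} [Group Q] [Finite Q] {A N : Subgroup Q}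

/-- `A = N` from the orders of the normalisers of a Sylow 7-subgroup -/
theorem index_eq {F : Type*} [Field F] [Fintype F] (hF : Fintype.card F = 3)
    (e : Q ≃* Cfsg.POmega F (Cfsg.quadFormPlus 4 F)) (hNA : N ≤ A) (hN : ∀ a ∈ A, ∀ n ∈ N, a * n * a⁻¹ ∈ N)
    (f : ↥N ≃* Cfsg.POmega (ZMod 2) (Cfsg.quadFormPlus 4 (ZMod 2))) : A = N ∧ A.index = 28431 := by
  have h7 : Fact (Nat.Prime 7) := ⟨by norm_num⟩
  have hQ : Nat.card Q = 4952179814400 := by rw [Nat.card_congr e.toEquiv, card_Q hF]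
  have hNc : Nat.card ↥N = 174182400 := by rw [Nat.card_congr f.toEquiv, card_L]
  -- the normal subgroup of `A`
  set N' : Subgroup ↥A := N.subgroupOf A with hN'
  have hn : N'.Normal := ⟨by
    rintro ⟨n, hn'⟩ hn ⟨a, ha⟩
    exact hN a ha n hn⟩
  let g : ↥N' ≃* ↥N := subgroupOfEquivOfLe hNA
  have hN'c : Nat.card ↥N' = 174182400 := by rw [Nat.card_congr g.toEquiv, hNc]
  -- a Sylow 7-subgroup
  obtain ⟨P⟩ : Nonempty (Sylow 7 ↥N') := inferInstance
  have hPc : Nat.card ↥(P : Subgroup ↥N') = 7 := by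
    obtain ⟨k, hk⟩ := P.isPGroup'.exists_card_eq
    have h1 := Subgroup.card_mul_index (P : Subgroup ↥N')
    have h2 := P.not_dvd_index
    rw [hk, hN'c] at h1
    rcases k with _ | _ | k
    · exfalso
      apply h2
      rw [pow_zero, one_mul] at h1
      rw [h1]
      norm_num
    · rw [hk, zero_add, pow_one]
    · exfalso
      have h3 : 49 ∣ 174182400 := ⟨7 ^ k * (P : Subgroup ↥N').index, by rw [← h1]; ring⟩
      norm_num at h3
  obtain ⟨⟨y, hyP⟩, hy⟩ := exists_prime_orderOf_dvd_card' (G := ↥(P : Subgroup ↥N')) 7 (by rw [hPc])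
  rw [Subgroup.orderOf_mk] at hy
  have hy1 : y ≠ 1 := by
    rintro rfl
    rw [orderOf_one] at hy
    norm_num at hy
  have hc1 : Nat.card ↥(centralizer ({y} : Set ↥N')) = 7 := by
    rw [card_cent_congr (g.trans f) y]
    exact card_cent_L (by rw [MulEquiv.orderOf_eq]; exact hy)
  obtain ⟨j, hj, hj'⟩ := norm_card hPc hyP hy1
  rw [hc1] at hj'
  have h3 := Subgroup.card_mul_index (normalizer ((P : Subgroup ↥N') : Set ↥N'))
  have h4 := card_sylow_modEq_one (p := 7) (G := ↥N')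
  rw [P.card_eq_index_normalizer, Nat.ModEq] at h4
  rw [hj', hN'c] at h3
  have hj6 : j = 6 := by
    have h5 : j ≤ 6 := Nat.le_of_dvd (by norm_num) hj
    change (normalizer ((P : Subgroup ↥N') : Set ↥N')).index % 7 = 1 % 7 at h4
    interval_cases j <;> omega
  have h5 := frattini_card P
  rw [hj', hj6] at h5
  -- in `Q`
  set PQ : Subgroup Q := ((P : Subgroup ↥N').map N'.subtype).map A.subtype with hPQ
  have hPQc : Nat.card ↥PQ = 7 := by
    rw [← hPc]
    exact ((Nat.card_congr (equivMapOfInjective _ _ N'.subtype_injective).toEquiv).trans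
      (Nat.card_congr (equivMapOfInjective _ _ A.subtype_injective).toEquiv)).symm
  have hyQ : ((y : ↥A) : Q) ∈ PQ := ⟨_, ⟨y, hyP, rfl⟩, rfl⟩
  have hyQ7 : orderOf ((y : ↥A) : Q) = 7 := by rw [Subgroup.orderOf_coe, Subgroup.orderOf_coe, hy]
  have hyQ1 : ((y : ↥A) : Q) ≠ 1 := by
    intro h
    rw [h, orderOf_one] at hyQ7
    norm_num at hyQ7
  obtain ⟨j', hj1, hj2⟩ := norm_card hPQc hyQ hyQ1
  have hc2 : Nat.card ↥(centralizer ({((y : ↥A) : Q)} : Set Q)) = 28 := by
    rw [card_cent_congr e]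
    exact card_cent_Q hF (by rw [MulEquiv.orderOf_eq]; exact hyQ7)
  rw [hc2] at hj2
  have h6 : Nat.card ↥(normalizer (((P : Subgroup ↥N').map N'.subtype : Subgroup ↥A) : Set ↥A)) ∣
      Nat.card ↥(normalizer (PQ : Set Q)) := by
    rw [Nat.card_congr (equivMapOfInjective (normalizer (((P : Subgroup ↥N').map N'.subtype : Subgroup ↥A) : Set ↥A))
      _ A.subtype_injective).toEquiv]
    exact Subgroup.card_dvd_of_le (Subgroup.le_normalizer_map _)
  rw [h5, hj2] at h6
  have h7 := Subgroup.card_mul_index N'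
  have h8 := Subgroup.card_mul_index A
  rw [hN'c] at h7
  rw [hQ, ← h7] at h8
  have h9 : N'.index * A.index = 28431 := by
    have : 174182400 * (N'.index * A.index) = 174182400 * 28431 := by rw [← mul_assoc, h8]
    exact Nat.eq_of_mul_eq_mul_left (by norm_num) this
  have h10 : N'.index ∣ 4 := by
    have h11 : N'.index * (7 * 6) ∣ 28 * 6 := h6.trans (Nat.mul_dvd_mul_left 28 hj1)
    have h12 : N'.index * 42 ∣ 4 * 42 := h11
    exact Nat.dvd_of_mul_dvd_mul_right (by norm_num) h12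
  have h13 : N'.index = 1 := by
    have h14 : N'.index ≤ 4 := Nat.le_of_dvd (by norm_num) h10
    have h15 : N'.index ≠ 3 := by
      intro h
      rw [h] at h10
      norm_num at h10
    generalize N'.index = k at *
    interval_cases k <;> omega
  rw [h13, one_mul] at h9
  refine ⟨le_antisymm (fun a ha => ?_) hNA, h9⟩
  have h16 : (⟨a, ha⟩ : ↥A) ∈ N' := by
    rw [Subgroup.index_eq_one.1 h13]; exact Subgroup.mem_top _
  exact h16

end

/-- Sylow 2-subgroups of `PΩ₈⁺(3)` are self-normalising. -/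
theorem self_Q {Q : Type*} [Group Q] [Finite Q] {F : Type*} [Field F] [Fintype F] (hF : Fintype.card F = 3)
    (e : Q ≃* Cfsg.POmega F (Cfsg.quadFormPlus 4 F)) (S : Sylow 2 Q) :
    normalizer ((S : Subgroup Q) : Set Q) ≤ S := by
  have : Finite (Cfsg.POmega F (Cfsg.quadFormPlus 4 F)) := Finite.of_equiv Q e.toEquiv
  intro g hg
  have hsurj : Function.Surjective e.toMonoidHom := e.surjective
  obtain ⟨S', hS'⟩ : ∃ S' : Sylow 2 (Cfsg.POmega F (Cfsg.quadFormPlus 4 F)),
      (S' : Subgroup (Cfsg.POmega F (Cfsg.quadFormPlus 4 F))) = (S : Subgroup Q).map e.toMonoidHom :=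
    ⟨S.mapSurjective hsurj, rfl⟩
  have h1 := Cfsg.Agent.H803.RowOmega.self_plus (F := F) (by rw [hF]; decide) 4 le_rfl S'
  rw [hS'] at h1
  have h3 := h1 (Subgroup.le_normalizer_map _ ⟨g, hg, rfl⟩ : e g ∈ _)
  obtain ⟨s, hs, hsg⟩ := h3
  rwa [← e.injective hsg]

/-- **S3499-IV-L, `L = Ω₈⁺(2)`, `Q = PΩ₈⁺(3)`.** -/
theorem kill {Q : Type*} [Group Q] [Finite Q] {A : Subgroup Q} {Γ : Subgroup (MulAut Q)} (h : EPT A Γ)
    (hsoc : HasSoc A (Cfsg.POmega (ZMod 2) (Cfsg.quadFormPlus 4 (ZMod 2)))) {F : Type*} [Field F] [Fintype F]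
    (hF : Fintype.card F = 3) (e : Q ≃* Cfsg.POmega F (Cfsg.quadFormPlus 4 F)) : False := by
  obtain ⟨N, hNA, hN, -, ⟨f⟩⟩ := hsoc
  obtain ⟨hAN, hi⟩ := index_eq hF e hNA hN f
  subst hAN
  obtain ⟨d⟩ := Cfsg.Agent.S1082.result (F := ZMod 2)
  exact kill_of h (by rw [hi]) (self_Q hF e) (prop2_D4.of_equiv (f.trans d.symm))

end Cfsg.Agent.H286.EP
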