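import Cfsg.Agent.H286.EP.PSeven
import Cfsg.Agent.H286.EP.KillO8

/-!
# The elements of order 7 of `Ω₈⁺(2)` (helper286, S3499-IV)

* `no_norm_syl` : no element of order 7 normalises a Sylow 2-subgroup of `D₄(2)`;
* `exists_u` : the Sylow criterion for the prime 7.
-/

set_option autoImplicit false
set_option linter.unusedSectionVars false

namespace Cfsg.Agent.H286.EP

open Cfsg.Agent.H284 Cfsg.Agent.H419.EP Subgroup
open Cfsg.Lie
open scoped commutatorElement

/-- no root other than the highest one commutes with all positive roots -/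
theorem cent_root : ∀ r, r < 24 → r = 23 ∨ ∃ s v, s < 24 ∧ v < 24 ∧ 12 ≤ s ∧ relOK r s v = true := by
  have h : ∀ r ∈ List.range 24, r = 23 ∨ ∃ s ∈ List.range 24, ∃ v ∈ List.range 24, 12 ≤ s ∧ relOK r s v = true := by
    decide +kernel
  intro r hr
  rcases h r (List.mem_range.2 hr) with h1 | ⟨s, hs, v, hv, h1, h2⟩
  · exact Or.inl h1
  · exact Or.inr ⟨s, v, List.mem_range.1 hs, List.mem_range.1 hv, h1, h2⟩

theorem D4_norm {K : Type} [Field K] [Finite K] [CharP K 2] (hK : ∀ t : K, t = 0 ∨ t = 1)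
    {y : ↥(chevD4.group K)} (hy : y ∈ normalizer (UU K : Set ↥(chevD4.group K))) : y * z K 23 = z K 23 * y := by
  obtain ⟨b, hb, r, hr, e⟩ := conj_high hK y
  have hcen : ∀ u ∈ UU K, u * (y * z K 23 * y⁻¹) = (y * z K 23 * y⁻¹) * u := by
    intro u hu
    have h1 : y⁻¹ * u * y ∈ UU K := by
      have h2 := (mem_normalizer_iff.1 (inv_mem hy) u).1 hu
      rwa [inv_inv] at h2
    have h2 := z_cent hK h1
    calc u * (y * z K 23 * y⁻¹) = y * ((y⁻¹ * u * y) * z K 23) * y⁻¹ := by group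
      _ = y * (z K 23 * (y⁻¹ * u * y)) * y⁻¹ := by rw [h2]
      _ = _ := by group
  rw [e] at hcen
  rcases cent_root r hr with rfl | ⟨s, v, hs, hv, hs', h1⟩
  · have h2 : b * z K 23 * b⁻¹ = z K 23 := by
      rw [z_cent hK hb]; group
    rw [h2] at e
    exact mul_inv_eq_iff_eq_mul.1 e
  · exfalso
    have h2 := z_comm K h1
    have h3 := hcen _ (mul_mem (mul_mem hb (z_mem_U K hs hs')) (inv_mem hb))
    have h4 : z K r * z K s = z K s * z K r := by
      calc z K r * z K s = b⁻¹ * ((b * z K r * b⁻¹) * (b * z K s * b⁻¹)) * b := by group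
        _ = b⁻¹ * ((b * z K s * b⁻¹) * (b * z K r * b⁻¹)) * b := by rw [h3]
        _ = _ := by group
    apply z_ne K hv
    rw [← h2, commutatorElement_def, h4]
    group

/-- no element of order 7 normalises a Sylow 2-subgroup -/
theorem no_norm_syl {G : Type*} [Group G] [Finite G] (f : G ≃* ↥(chevD4.group (ZMod 2))) (P : Sylow 2 G) {y : G}
    (hy : Nat.card ↥(centralizer ({y} : Set G)) = 7) (hyn : y ∈ normalizer ((P : Subgroup G) : Set G)) : False := by
  have hK : ∀ t : ZMod 2, t = 0 ∨ t = 1 := by decide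
  have : Finite ↥(chevD4.group (ZMod 2)) := Finite.of_equiv G f.toEquiv
  set U : Sylow 2 ↥(chevD4.group (ZMod 2)) := (U_pgroup (K := ZMod 2)).toSylow U_index with hU
  -- the Sylow subgroup in `D₄`
  have hsurj : Function.Surjective f.toMonoidHom := f.surjective
  obtain ⟨P', hP'⟩ : ∃ P' : Sylow 2 ↥(chevD4.group (ZMod 2)),
      (P' : Subgroup ↥(chevD4.group (ZMod 2))) = (P : Subgroup G).map f.toMonoidHom :=
    ⟨P.mapSurjective hsurj, rfl⟩
  obtain ⟨g, hg⟩ := MulAction.exists_smul_eq ↥(chevD4.group (ZMod 2)) U P'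
  have h1 : f y ∈ normalizer ((P' : Subgroup ↥(chevD4.group (ZMod 2))) : Set _) := by
    rw [hP']
    exact Subgroup.le_normalizer_map _ ⟨y, hyn, rfl⟩
  have h2 : g⁻¹ * f y * g ∈ normalizer (UU (ZMod 2) : Set ↥(chevD4.group (ZMod 2))) := by
    rw [← hg, mem_normalizer_iff] at h1
    have hm : ∀ x, x ∈ ((g • U : Sylow 2 ↥(chevD4.group (ZMod 2))) : Subgroup ↥(chevD4.group (ZMod 2))) ↔
        g⁻¹ * x * g ∈ UU (ZMod 2) := by
      intro x
      rw [Sylow.coe_subgroup_smul, Subgroup.mem_pointwise_smul_iff_inv_smul_mem]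
      rw [← map_inv, MulAut.smul_def, MulAut.conj_apply, inv_inv]
      rfl
    rw [mem_normalizer_iff]
    intro x
    have h3 := h1 (g * x * g⁻¹)
    rw [hm, hm] at h3
    have e1 : g⁻¹ * (g * x * g⁻¹) * g = x := by group
    have e2 : g⁻¹ * (f y * (g * x * g⁻¹) * (f y)⁻¹) * g = g⁻¹ * f y * g * x * (g⁻¹ * f y * g)⁻¹ := by group
    rw [e1, e2] at h3
    exact h3
  have h3 := D4_norm hK h2
  -- an involution centralising `y`
  set t : G := f.symm (g * z (ZMod 2) 23 * g⁻¹) with ht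
  have ht2 : t * t = 1 := by
    rw [ht, ← map_mul]
    have : g * z (ZMod 2) 23 * g⁻¹ * (g * z (ZMod 2) 23 * g⁻¹) = g * (z (ZMod 2) 23 * z (ZMod 2) 23) * g⁻¹ := by group
    rw [this, z_sq _ (by norm_num), mul_one, mul_inv_cancel, map_one]
  have ht1 : t ≠ 1 := by
    intro e
    rw [ht, map_eq_one_iff f.symm f.symm.injective] at e
    apply z_ne (ZMod 2) (r := 23) (by norm_num)
    have : z (ZMod 2) 23 = g⁻¹ * (g * z (ZMod 2) 23 * g⁻¹) * g := by group
    rw [this, e]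
    group
  have htc : t ∈ centralizer ({y} : Set G) := by
    rw [mem_centralizer_singleton_iff]
    apply f.injective
    rw [map_mul, map_mul, ht, MulEquiv.apply_symm_apply]
    calc g * z (ZMod 2) 23 * g⁻¹ * f y = g * (z (ZMod 2) 23 * (g⁻¹ * f y * g)) * g⁻¹ := by group
      _ = g * ((g⁻¹ * f y * g) * z (ZMod 2) 23) * g⁻¹ := by rw [h3]
      _ = _ := by group
  have h4 : orderOf (⟨t, htc⟩ : ↥(centralizer ({y} : Set G))) ∣ 7 := by
    rw [← hy]
    exact orderOf_dvd_natCard _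
  have h5 : orderOf (⟨t, htc⟩ : ↥(centralizer ({y} : Set G))) ∣ 2 := by
    apply orderOf_dvd_of_pow_eq_one
    apply Subtype.ext
    rw [pow_two]
    exact ht2
  have h6 := Nat.dvd_gcd h4 h5
  have h7 : Nat.gcd 7 2 = 1 := by norm_num
  rw [h7, Nat.dvd_one, orderOf_eq_one_iff] at h6
  exact ht1 (congrArg Subtype.val h6)

section

variable {Q : Type*} [Group Q] [Finite Q] {A N : Subgroup Q} {Γ : Subgroup (MulAut Q)}

theorem pow_three (s : ℕ) (h0 : s % 7 ≠ 0) (h1 : s % 7 ≠ 1) : ∃ k, 1 ≤ k ∧ k ≤ 5 ∧ s % 7 = 3 ^ k % 7 := by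
  have : s % 7 < 7 := Nat.mod_lt _ (by norm_num)
  have h : s % 7 = 2 ∨ s % 7 = 3 ∨ s % 7 = 4 ∨ s % 7 = 5 ∨ s % 7 = 6 := by omega
  rcases h with h | h | h | h | h
  · exact ⟨2, by norm_num, by norm_num, by rw [h]; norm_num⟩
  · exact ⟨1, by norm_num, by norm_num, by rw [h]; norm_num⟩
  · exact ⟨4, by norm_num, by norm_num, by rw [h]; norm_num⟩
  · exact ⟨5, by norm_num, by norm_num, by rw [h]; norm_num⟩
  · exact ⟨3, by norm_num, by norm_num, by rw [h]; norm_num⟩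

theorem factorization_card : (174182400 : ℕ).factorization 2 = 12 ∧ (174182400 : ℕ).factorization 3 = 5 ∧
    (174182400 : ℕ).factorization 5 = 2 ∧ ∀ l, l.Prime → l ∣ 174182400 → l = 2 ∨ l = 3 ∨ l = 5 ∨ l = 7 := by
  refine ⟨?_, ?_, ?_, ?_⟩
  · rw [show (174182400 : ℕ) = 2 ^ 12 * 42525 by norm_num, Nat.factorization_mul (by norm_num) (by norm_num),
      Finsupp.add_apply, Nat.prime_two.factorization_pow, Finsupp.single_eq_same,
      Nat.factorization_eq_zero_of_not_dvd (by norm_num)]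
  · rw [show (174182400 : ℕ) = 3 ^ 5 * 716800 by norm_num, Nat.factorization_mul (by norm_num) (by norm_num),
      Finsupp.add_apply, Nat.prime_three.factorization_pow, Finsupp.single_eq_same,
      Nat.factorization_eq_zero_of_not_dvd (by norm_num)]
  · rw [show (174182400 : ℕ) = 5 ^ 2 * 6967296 by norm_num, Nat.factorization_mul (by norm_num) (by norm_num),
      Finsupp.add_apply, Nat.prime_five.factorization_pow, Finsupp.single_eq_same,
      Nat.factorization_eq_zero_of_not_dvd (by norm_num)]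
  · intro l hl hd
    rw [show (174182400 : ℕ) = 2 ^ 12 * (3 ^ 5 * (5 ^ 2 * 7)) by norm_num] at hd
    rcases hl.dvd_mul.1 hd with h | h
    · exact Or.inl ((Nat.prime_dvd_prime_iff_eq hl Nat.prime_two).1 (hl.dvd_of_dvd_pow h))
    rcases hl.dvd_mul.1 h with h | h
    · exact Or.inr (Or.inl ((Nat.prime_dvd_prime_iff_eq hl Nat.prime_three).1 (hl.dvd_of_dvd_pow h)))
    rcases hl.dvd_mul.1 h with h | h
    · exact Or.inr (Or.inr (Or.inl ((Nat.prime_dvd_prime_iff_eq hl Nat.prime_five).1 (hl.dvd_of_dvd_pow h))))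
    · exact Or.inr (Or.inr (Or.inr ((Nat.prime_dvd_prime_iff_eq hl (by norm_num)).1 h)))

/-- **the Sylow criterion for the prime 7**, `soc(A) ≅ Ω₈⁺(2)` -/
theorem exists_u (h : EPT A Γ) (hNA : N ≤ A) (hNΓ : ∀ σ ∈ Γ, ∀ n ∈ N, σ n ∈ N)
    (f : ↥N ≃* Cfsg.POmega (ZMod 2) (Cfsg.quadFormPlus 4 (ZMod 2))) {y c : Q} (hyN : y ∈ N) (hy : orderOf y = 7)
    (hcy : c * y = y * c) (hcA : c ∉ A) :
    ∃ u, u ∈ A ∧ c⁻¹ * u * c ∈ A ∧ ∃ k, 1 ≤ k ∧ k ≤ 5 ∧ u * y * u⁻¹ = y ^ (3 ^ k) := by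
  have h7 : Fact (Nat.Prime 7) := ⟨by norm_num⟩
  have hNc : Nat.card ↥N = 174182400 := by rw [Nat.card_congr f.toEquiv, card_L]
  obtain ⟨d⟩ := Cfsg.Agent.S1082.result (F := ZMod 2)
  have fd : ↥N ≃* ↥(chevD4.group (ZMod 2)) := f.trans d.symm
  set Y : Subgroup Q := zpowers y with hYd
  have hY : Nat.card Y = 7 := by rw [hYd, Nat.card_zpowers, hy]
  have hYN : Y ≤ N := by rw [hYd, zpowers_le]; exact hyN
  -- the centraliser in `N`
  have hyN7 : orderOf (⟨y, hyN⟩ : ↥N) = 7 := by rw [Subgroup.orderOf_mk]; exact hy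
  have hcent : Nat.card ↥(centralizer ({(⟨y, hyN⟩ : ↥N)} : Set ↥N)) = 7 := by
    rw [card_cent_congr f]
    exact card_cent_L (by rw [MulEquiv.orderOf_eq]; exact hyN7)
  have hYc : ∀ a ∈ N, (∀ y ∈ Y, a * y = y * a) → a ∈ Y := by
    intro a ha hay
    have h1 : zpowers (⟨y, hyN⟩ : ↥N) = centralizer ({(⟨y, hyN⟩ : ↥N)} : Set ↥N) := by
      have hle : zpowers (⟨y, hyN⟩ : ↥N) ≤ centralizer ({(⟨y, hyN⟩ : ↥N)} : Set ↥N) := by
        rw [zpowers_le, mem_centralizer_singleton_iff]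
      apply SetLike.coe_injective
      refine Set.eq_of_subset_of_ncard_le hle ?_ (Set.toFinite _)
      rw [← Nat.card_coe_set_eq, ← Nat.card_coe_set_eq]
      change Nat.card ↥(centralizer ({(⟨y, hyN⟩ : ↥N)} : Set ↥N)) ≤ Nat.card ↥(zpowers (⟨y, hyN⟩ : ↥N))
      rw [hcent, Nat.card_zpowers, hyN7]
    have h2 : (⟨a, ha⟩ : ↥N) ∈ centralizer ({(⟨y, hyN⟩ : ↥N)} : Set ↥N) := by
      rw [mem_centralizer_singleton_iff]
      exact Subtype.ext (hay y (mem_zpowers y))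
    rw [← h1] at h2
    obtain ⟨k, hk⟩ := mem_zpowers_iff.1 h2
    exact mem_zpowers_iff.2 ⟨k, Subtype.ext_iff.1 hk⟩
  -- `Y` is a Sylow 7-subgroup of `N`
  set Y' : Subgroup ↥N := zpowers (⟨y, hyN⟩ : ↥N) with hY'
  have hY'c : Nat.card Y' = 7 := by rw [hY', Nat.card_zpowers, hyN7]
  have hY'p : IsPGroup 7 Y' := IsPGroup.of_card (n := 1) (by rw [hY'c, pow_one])
  have hY'i : ¬ 7 ∣ Y'.index := by
    have h1 := Y'.card_mul_index
    rw [hY'c, hNc] at h1
    intro h2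
    omega
  set P : Sylow 7 ↥N := hY'p.toSylow hY'i with hP
  have hPY : (P : Subgroup ↥N) = Y' := rfl
  -- an element normalising `Y`
  obtain ⟨w, hw1, hw2⟩ : ∃ w ∈ normalizer (Y' : Set ↥N), w ∉ Y' := by
    by_contra hcon
    push Not at hcon
    have h1 : normalizer (Y' : Set ↥N) = Y' := le_antisymm hcon Subgroup.le_normalizer
    have h2 := card_sylow_modEq_one (p := 7) (G := ↥N)
    rw [P.card_eq_index_normalizer] at h2
    change (normalizer (Y' : Set ↥N)).index % 7 = 1 % 7 at h2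
    rw [h1] at h2
    have h3 := Y'.card_mul_index
    rw [hY'c, hNc] at h3
    omega
  have hwY : ∀ v ∈ Y, (w : Q) * v * (w : Q)⁻¹ ∈ Y := by
    intro v hv
    obtain ⟨k, rfl⟩ := mem_zpowers_iff.1 hv
    have h1 := (mem_normalizer_iff.1 hw1 ((⟨y, hyN⟩ : ↥N) ^ k)).1 (zpow_mem (mem_zpowers _) k)
    obtain ⟨j, hj⟩ := mem_zpowers_iff.1 h1
    refine mem_zpowers_iff.2 ⟨j, ?_⟩
    have := Subtype.ext_iff.1 hj
    simpa using this
  have hwY' : (w : Q) ∉ Y := by
    intro h1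
    apply hw2
    obtain ⟨k, hk⟩ := mem_zpowers_iff.1 h1
    exact mem_zpowers_iff.2 ⟨k, Subtype.ext hk⟩
  have hYc' : Y ≤ cj c A := by
    intro v hv
    obtain ⟨k, rfl⟩ := mem_zpowers_iff.1 hv
    have h1 : c⁻¹ * y ^ k * c = y ^ k := by
      rw [mul_assoc, ← (show Commute c y from hcy).zpow_right k, inv_mul_cancel_left]
    rw [mem_cj, h1]
    exact hNA (N.zpow_mem hyN k)
  obtain ⟨u, hu1, hu2, hu3, hu4⟩ := ps_norm h hNA hNΓ (s := 7) (by norm_num) hYN hY hYc w.2 hwY hwY' (by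
    intro l hl hld hls R hRN hRp hRc hRm hmax hRY
    obtain ⟨f2, f3, f5, fl⟩ := factorization_card
    rw [hNc] at hld hRc
    rcases fl l hl hld with rfl | rfl | rfl | rfl
    · -- `l = 2`
      have hRN' : IsPGroup 2 (R.subgroupOf N) := hRp.of_equiv (Subgroup.subgroupOfEquivOfLe hRN).symm
      obtain ⟨P2, hP2⟩ := hRN'.exists_le_sylow
      have hPR : (P2 : Subgroup N).map N.subtype = R := by
        apply hmax
        · rintro _ ⟨y, _, rfl⟩
          exact y.2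
        · exact P2.isPGroup'.map _
        · intro y hy
          exact ⟨⟨y, hRN hy⟩, hP2 hy, rfl⟩
      refine no_norm_syl fd P2 hcent ?_
      have hm : ∀ x : ↥N, x ∈ (P2 : Subgroup ↥N) ↔ (x : Q) ∈ R := by
        intro x
        rw [← hPR]
        constructor
        · intro hx
          exact ⟨x, hx, rfl⟩
        · rintro ⟨x', hx', e⟩
          have : x' = x := Subtype.ext e
          rwa [← this]
      have hyR : ∀ r ∈ R, y * r * y⁻¹ ∈ R := hRY y (mem_zpowers y)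
      have hyR' : ∀ r ∈ R, y⁻¹ * r * y⁻¹⁻¹ ∈ R := hRY y⁻¹ (inv_mem (mem_zpowers y))
      rw [mem_normalizer_iff]
      intro x
      rw [hm, hm]
      constructor
      · exact hyR x
      · intro h1
        have h2 := hyR' _ h1
        have h3 : y⁻¹ * (y * (x : Q) * y⁻¹) * y⁻¹⁻¹ = x := by group
        have h4 : y⁻¹ * ((((⟨y, hyN⟩ : ↥N) * x * (⟨y, hyN⟩ : ↥N)⁻¹ : ↥N)) : Q) * y⁻¹⁻¹ = x := h3
        rwa [h4] at h2
    · rw [hRc, f3, Nat.ModEq] at hRm
      norm_num at hRm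
    · rw [hRc, f5, Nat.ModEq] at hRm
      norm_num at hRm
    · exact hls rfl) hYc' hcA
  refine ⟨u, (mem_inf.1 hu1).1, mem_cj.1 (mem_inf.1 hu1).2, ?_⟩
  have h1 := hu3 y (mem_zpowers y)
  obtain ⟨s, hs⟩ : ∃ s : ℕ, y ^ s = u * y * u⁻¹ := by
    have h2 : u * y * u⁻¹ ∈ Submonoid.powers y := by
      rw [mem_powers_iff_mem_zpowers]
      exact h1
    exact h2
  have hs0 : s % 7 ≠ 0 := by
    intro h2
    have h3 : y ^ s = 1 := by
      rw [← orderOf_dvd_iff_pow_eq_one, hy]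
      exact Nat.dvd_of_mod_eq_zero h2
    rw [h3] at hs
    have h4 : y = 1 := by
      have : y = u⁻¹ * (u * y * u⁻¹) * u := by group
      rw [this, ← hs]
      group
    rw [h4, orderOf_one] at hy
    norm_num at hy
  have hs1 : s % 7 ≠ 1 := by
    intro h2
    apply hu4
    apply hYc u hu2
    have h3 : y ^ s = y := by
      conv_rhs => rw [← pow_one y]
      rw [pow_eq_pow_iff_modEq, hy]
      exact h2
    rw [h3] at hs
    have h4 : u * y = y * u := (mul_inv_eq_iff_eq_mul.1 hs.symm)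
    intro v hv
    obtain ⟨k, rfl⟩ := mem_zpowers_iff.1 hv
    exact (show Commute u y from h4).zpow_right k
  obtain ⟨k, hk1, hk2, hk3⟩ := pow_three s hs0 hs1
  refine ⟨k, hk1, hk2, ?_⟩
  rw [← hs, pow_eq_pow_iff_modEq, hy]
  exact hk3

end

end Cfsg.Agent.H286.EP
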