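import Cfsg.Agent.H286.EP.DSeven

/-!
# A Frobenius group `2³:7` in `D₄(2)` (helper286, S3499-IV)
-/

set_option autoImplicit false
set_option linter.unusedSectionVars false

namespace Cfsg.Agent.H286.EP

open Cfsg.Agent.H284 Subgroup
open Cfsg.Lie
open scoped commutatorElement

/-- `y` of order 7, `a, a^y, a^{y²}` commuting involutions, `a^{y³} = a a^y` -/
def F56 (G : Type*) [Group G] : Prop :=
  ∃ y a : G, y ^ 7 = 1 ∧ y ≠ 1 ∧ a ≠ 1 ∧ a * a = 1 ∧ a * (y * a * y⁻¹) = (y * a * y⁻¹) * a ∧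
    a * (y * (y * a * y⁻¹) * y⁻¹) = (y * (y * a * y⁻¹) * y⁻¹) * a ∧
    y * (y * (y * a * y⁻¹) * y⁻¹) * y⁻¹ = a * (y * a * y⁻¹)

theorem F56.of_equiv {G H : Type*} [Group G] [Group H] (h : F56 H) (f : G ≃* H) : F56 G := by
  obtain ⟨y, a, h1, h2, h3, h4, h5, h6, h7⟩ := h
  refine ⟨f.symm y, f.symm a, ?_, ?_, ?_, ?_, ?_, ?_, ?_⟩
  · rw [← map_pow, h1, map_one]
  · rwa [Ne, map_eq_one_iff f.symm f.symm.injective]
  · rwa [Ne, map_eq_one_iff f.symm f.symm.injective]
  · rw [← map_mul, h4, map_one]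
  · simp only [← map_mul, ← map_inv, h5]
  · simp only [← map_mul, ← map_inv, h6]
  · simp only [← map_mul, ← map_inv, h7]

/-- the order of `y` can be adjusted -/
theorem F56.of_pow {G : Type*} [Group G] [Finite G] (h49 : ¬ 7 ^ 2 ∣ Nat.card G) {y a b c : G} (ha : a ≠ 1)
    (haa : a * a = 1) (hab : a * b = b * a) (hac : a * c = c * a) (hbc : b * c = c * b) (hb : y * a * y⁻¹ = b)
    (hc : y * b * y⁻¹ = c) (hy : y * c * y⁻¹ = a * b) : F56 G := by
  have h7 : Fact (Nat.Prime 7) := ⟨by norm_num⟩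
  -- `b`, `c` are involutions
  have hbb : b * b = 1 := by
    rw [← hb]
    calc y * a * y⁻¹ * (y * a * y⁻¹) = y * (a * a) * y⁻¹ := by group
      _ = 1 := by rw [haa]; group
  have hcc : c * c = 1 := by
    rw [← hc]
    calc y * b * y⁻¹ * (y * b * y⁻¹) = y * (b * b) * y⁻¹ := by group
      _ = 1 := by rw [hbb]; group
  -- the action of the powers of `y` on `a`
  have e3 : y ^ 3 * a * (y ^ 3)⁻¹ = a * b := by
    have h1 : y ^ 3 * a * (y ^ 3)⁻¹ = y * (y * (y * a * y⁻¹) * y⁻¹) * y⁻¹ := by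
      simp only [pow_succ, pow_zero, one_mul, mul_inv_rev, mul_assoc]
    rw [h1, hb, hc, hy]
  have e7 : y ^ 7 * a * (y ^ 7)⁻¹ = a := by
    have s1 : y * (a * b) * y⁻¹ = b * c := by
      calc y * (a * b) * y⁻¹ = (y * a * y⁻¹) * (y * b * y⁻¹) := by group
        _ = b * c := by rw [hb, hc]
    have s2 : y * (b * c) * y⁻¹ = c * (a * b) := by
      calc y * (b * c) * y⁻¹ = (y * b * y⁻¹) * (y * c * y⁻¹) := by group
        _ = c * (a * b) := by rw [hc, hy]
    have s3 : y * (c * (a * b)) * y⁻¹ = a * b * (b * c) := by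
      calc y * (c * (a * b)) * y⁻¹ = (y * c * y⁻¹) * ((y * a * y⁻¹) * (y * b * y⁻¹)) := by group
        _ = a * b * (b * c) := by rw [hc, hy, hb]
    have s3' : a * b * (b * c) = a * c := by
      calc a * b * (b * c) = a * (b * b) * c := by group
        _ = a * c := by rw [hbb, mul_one]
    have s4 : y * (a * c) * y⁻¹ = b * (a * b) := by
      calc y * (a * c) * y⁻¹ = (y * a * y⁻¹) * (y * c * y⁻¹) := by group
        _ = b * (a * b) := by rw [hb, hy]
    have s4' : b * (a * b) = a := by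
      rw [hab, ← mul_assoc, hbb, one_mul]
    calc y ^ 7 * a * (y ^ 7)⁻¹ = y * (y * (y * (y * (y ^ 3 * a * (y ^ 3)⁻¹) * y⁻¹) * y⁻¹) * y⁻¹) * y⁻¹ := by group
      _ = a := by rw [e3, s1, s2, s3, s3', s4, s4']
  have hcomm7 : Commute (y ^ 7) a := by
    have := mul_inv_eq_iff_eq_mul.1 e7
    exact this
  -- 7 divides the order of `y`
  have hyb : y * a ≠ a * y := by
    intro h
    have h1 : b = a := by rw [← hb, h, mul_inv_cancel_right]
    have h2 : c = a := by rw [← hc, h1, hb, h1]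
    have h3 := hy
    rw [h2, h1] at h3
    rw [haa] at h3
    apply ha
    rw [← h1, ← hb]
    exact h3
  obtain ⟨m, hm⟩ : 7 ∣ orderOf y := by
    by_contra h
    have h1 : (7 : ℕ).Coprime (orderOf y) := (Nat.Prime.coprime_iff_not_dvd (by norm_num)).2 h
    obtain ⟨k, hk⟩ := exists_pow_eq_self_of_coprime h1
    apply hyb
    have h2 := hcomm7.pow_left k
    rw [hk] at h2
    exact h2
  have hm7 : ¬ 7 ∣ m := by
    rintro ⟨m', rfl⟩
    apply h49
    refine Dvd.dvd.trans ?_ (orderOf_dvd_natCard y)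
    rw [hm]
    exact ⟨m', by ring⟩
  obtain ⟨k, hk⟩ : ∃ k : ℕ, (m * k) % 7 = 1 := by
    have h1 : m % 7 < 7 := Nat.mod_lt _ (by norm_num)
    have h2 : m % 7 ≠ 0 := fun h => hm7 (Nat.dvd_of_mod_eq_zero h)
    have h3 : m % 7 = 1 ∨ m % 7 = 2 ∨ m % 7 = 3 ∨ m % 7 = 4 ∨ m % 7 = 5 ∨ m % 7 = 6 := by omega
    rcases h3 with h | h | h | h | h | h
    · exact ⟨1, by rw [Nat.mul_mod, h]⟩
    · exact ⟨4, by rw [Nat.mul_mod, h]⟩
    · exact ⟨5, by rw [Nat.mul_mod, h]⟩
    · exact ⟨2, by rw [Nat.mul_mod, h]⟩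
    · exact ⟨3, by rw [Nat.mul_mod, h]⟩
    · exact ⟨6, by rw [Nat.mul_mod, h]⟩
  obtain ⟨j, hj⟩ : ∃ j, m * k = 7 * j + 1 := ⟨m * k / 7, by omega⟩
  -- the adjusted element
  set x := y ^ (m * k) with hx
  have hcx : ∀ g : G, Commute (y ^ 7) g → x * g * x⁻¹ = y * g * y⁻¹ := by
    intro g hg
    have h1 : x = y * (y ^ 7) ^ j := by
      rw [hx, hj, ← pow_mul, ← pow_succ']
    have h2 : (y ^ 7) ^ j * g = g * (y ^ 7) ^ j := hg.pow_left j
    rw [h1]
    calc y * (y ^ 7) ^ j * g * (y * (y ^ 7) ^ j)⁻¹ = y * ((y ^ 7) ^ j * g) * ((y ^ 7) ^ j)⁻¹ * y⁻¹ := by group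
      _ = y * (g * (y ^ 7) ^ j) * ((y ^ 7) ^ j)⁻¹ * y⁻¹ := by rw [h2]
      _ = _ := by group
  have hyy : Commute (y ^ 7) y := (Commute.refl y).pow_left 7
  have hb7 : Commute (y ^ 7) b := by
    rw [← hb]
    exact (hyy.mul_right hcomm7).mul_right hyy.inv_right
  have hc7 : Commute (y ^ 7) c := by
    rw [← hc]
    exact (hyy.mul_right hb7).mul_right hyy.inv_right
  have xa : x * a * x⁻¹ = b := by rw [hcx a hcomm7, hb]
  have xb : x * b * x⁻¹ = c := by rw [hcx b hb7, hc]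
  have xc : x * c * x⁻¹ = a * b := by rw [hcx c hc7, hy]
  refine ⟨x, a, ?_, ?_, ha, haa, ?_, ?_, ?_⟩
  · rw [hx, ← pow_mul, show m * k * 7 = (7 * m) * k by ring, ← hm, pow_mul, pow_orderOf_eq_one, one_pow]
  · intro h
    apply hyb
    have h1 : b = a := by rw [← xa, h]; group
    have h2 := hb
    rw [h1] at h2
    exact mul_inv_eq_iff_eq_mul.1 h2
  · rw [xa, hab]
  · rw [xa, xb, hac]
  · rw [xa, xb, xc]

theorem F56_D4 : F56 ↥(chevD4.group (ZMod 2)) := by
  have hfin : Finite ↥(chevD4.group (ZMod 2)) := by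
    obtain ⟨d⟩ := Cfsg.Agent.S1082.result (F := ZMod 2)
    have : Finite (Cfsg.POmega (ZMod 2) (Cfsg.quadFormPlus 4 (ZMod 2))) :=
      Nat.finite_of_card_ne_zero (by rw [card_L]; norm_num)
    exact Finite.of_equiv _ d.symm.toEquiv
  have hcard : Nat.card ↥(chevD4.group (ZMod 2)) = 174182400 := by
    obtain ⟨d⟩ := Cfsg.Agent.S1082.result (F := ZMod 2)
    rw [Nat.card_congr d.toEquiv, card_L]
  have hz : ∀ {r s v : ℕ}, relOK r s v = true →
      z (ZMod 2) r * z (ZMod 2) s * (z (ZMod 2) r)⁻¹ = z (ZMod 2) v * z (ZMod 2) s := by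
    intro r s v h
    rw [← z_comm (ZMod 2) h, commutatorElement_def]
    group
  have hz0 : ∀ {r s : ℕ}, r < 24 → s < 24 → 0 ≤ Cfsg.Agent.KFacts.ChevTwoTab.carB chevD4 s r →
      z (ZMod 2) r * z (ZMod 2) s * (z (ZMod 2) r)⁻¹ = z (ZMod 2) s := by
    intro r s hr hs h
    rw [z_comm0 (ZMod 2) hr hs h, mul_inv_cancel_right]
  have s13 := z_sq (ZMod 2) (r := 13) (by norm_num)
  have s16 := z_sq (ZMod 2) (r := 16) (by norm_num)
  have s21 := z_sq (ZMod 2) (r := 21) (by norm_num)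
  have c1 := z_comm0 (ZMod 2) (r := 16) (s := 13) (by norm_num) (by norm_num) (by decide +kernel)
  have c2 := z_comm0 (ZMod 2) (r := 21) (s := 13) (by norm_num) (by norm_num) (by decide +kernel)
  have c3 := z_comm0 (ZMod 2) (r := 21) (s := 16) (by norm_num) (by norm_num) (by decide +kernel)
  -- the actions
  have a14_13 := hz (r := 14) (s := 13) (v := 16) (by decide +kernel)
  have a14_16 := hz0 (r := 14) (s := 16) (by norm_num) (by norm_num) (by decide +kernel)
  have a14_21 := hz0 (r := 14) (s := 21) (by norm_num) (by norm_num) (by decide +kernel)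
  have a18_13 := hz0 (r := 18) (s := 13) (by norm_num) (by norm_num) (by decide +kernel)
  have a18_16 := hz (r := 18) (s := 16) (v := 21) (by decide +kernel)
  have a18_21 := hz0 (r := 18) (s := 21) (by norm_num) (by norm_num) (by decide +kernel)
  have a5_13 := hz0 (r := 5) (s := 13) (by norm_num) (by norm_num) (by decide +kernel)
  have a5_16 := hz0 (r := 5) (s := 16) (by norm_num) (by norm_num) (by decide +kernel)
  have a5_21 := hz (r := 5) (s := 21) (v := 16) (by decide +kernel)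
  have a9_13 := hz0 (r := 9) (s := 13) (by norm_num) (by norm_num) (by decide +kernel)
  have a9_16 := hz (r := 9) (s := 16) (v := 13) (by decide +kernel)
  have a9_21 := hz0 (r := 9) (s := 21) (by norm_num) (by norm_num) (by decide +kernel)
  have hne := z_ne (ZMod 2) (r := 13) (by norm_num)
  generalize z (ZMod 2) 13 = A at *
  generalize z (ZMod 2) 16 = B at *
  generalize z (ZMod 2) 21 = C at *
  generalize z (ZMod 2) 14 = u at *
  generalize z (ZMod 2) 18 = v at *
  generalize z (ZMod 2) 5 = w at *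
  generalize z (ZMod 2) 9 = x at *
  have hu : ∀ g : ↥(chevD4.group (ZMod 2)), x * w * v * u * g * (x * w * v * u)⁻¹ =
      x * (w * (v * (u * g * u⁻¹) * v⁻¹) * w⁻¹) * x⁻¹ := by
    intro g
    group
  have cm : ∀ k g h : ↥(chevD4.group (ZMod 2)), k * (g * h) * k⁻¹ = (k * g * k⁻¹) * (k * h * k⁻¹) := by
    intro k g h
    group
  have s13' : ∀ g, A * (A * g) = g := fun g => by rw [← mul_assoc, s13, one_mul]
  have s16' : ∀ g, B * (B * g) = g := fun g => by rw [← mul_assoc, s16, one_mul]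
  have s21' : ∀ g, C * (C * g) = g := fun g => by rw [← mul_assoc, s21, one_mul]
  have c1' : ∀ g, B * (A * g) = A * (B * g) := fun g => by rw [← mul_assoc, c1, mul_assoc]
  have c2' : ∀ g, C * (A * g) = A * (C * g) := fun g => by rw [← mul_assoc, c2, mul_assoc]
  have c3' : ∀ g, C * (B * g) = B * (C * g) := fun g => by rw [← mul_assoc, c3, mul_assoc]
  have r1 : x * w * v * u * A * (x * w * v * u)⁻¹ = A * C := by
    rw [hu, a14_13, cm v, a18_16, a18_13, cm w, cm w, a5_21, a5_16, a5_13, cm x, cm x, cm x, a9_13, a9_16, a9_21]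
    simp only [mul_assoc, s13, s16, s21, s13', s16', s21', c1, c2, c3, c1', c2', c3', mul_one, one_mul]
  have r3 : x * w * v * u * B * (x * w * v * u)⁻¹ = C := by
    rw [hu, a14_16, a18_16, cm w, a5_21, a5_16, cm x, cm x, a9_16, a9_21]
    simp only [mul_assoc, s13, s16, s21, s13', s16', s21', c1, c2, c3, c1', c2', c3', mul_one, one_mul]
  have r4 : x * w * v * u * C * (x * w * v * u)⁻¹ = A * B * C := by
    rw [hu, a14_21, a18_21, a5_21, cm x, a9_16, a9_21]
  refine F56.of_pow (y := x * w * v * u) (a := A) (b := A * C) (c := B) ?_ hne s13 ?_ ?_ ?_ r1 ?_ ?_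
  · rw [hcard]; norm_num
  · simp only [mul_assoc, s13, s16, s21, s13', s16', s21', c1, c2, c3, c1', c2', c3', mul_one, one_mul]
  · simp only [mul_assoc, s13, s16, s21, s13', s16', s21', c1, c2, c3, c1', c2', c3', mul_one, one_mul]
  · simp only [mul_assoc, s13, s16, s21, s13', s16', s21', c1, c2, c3, c1', c2', c3', mul_one, one_mul]
  · rw [cm, r1, r4]
    simp only [mul_assoc, s13, s16, s21, s13', s16', s21', c1, c2, c3, c1', c2', c3', mul_one, one_mul]
  · rw [r3]
    simp only [mul_assoc, s13, s16, s21, s13', s16', s21', c1, c2, c3, c1', c2', c3', mul_one, one_mul]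

end Cfsg.Agent.H286.EP
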