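import Cfsg.Agent.H286.EP.DFour
import Cfsg.Agent.H284.EP.TForm

/-!
# Extremely primitive groups with `A ≅ D₄(2)`, `|Q : A| ≡ 3 mod 4`

* `exists_two` : a 2-group `S ≤ A` fixing one point of `Q/A` only, `|Q : A| ≡ 3 (4)`: some `x ∉ A` with `[S,S] ≤ A^x`;
* `kill_of` : `EPT A Γ`, `A ≅ D₄(2)`, `|Q : A| ≡ 3 (4)`, Sylow 2-subgroups of `Q` self-normalising: contradiction.
-/

set_option autoImplicit false
set_option linter.unusedSectionVars false

namespace Cfsg.Agent.H286.EP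

open Cfsg.Agent.H284
open scoped commutatorElement

section

variable {Q : Type*} [Group Q]

/-- a subgroup of index at most two contains the commutators -/
theorem comm_mem_of_index {G : Type*} [Group G] {H : Subgroup G} (h : H.index = 1 ∨ H.index = 2) (a b : G) :
    ⁅a, b⁆ ∈ H := by
  rcases h with h | h
  · rw [Subgroup.index_eq_one.1 h]; exact Subgroup.mem_top _
  · rw [commutatorElement_def, Subgroup.mul_mem_iff_of_index_two h, Subgroup.mul_mem_iff_of_index_two h,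
      Subgroup.mul_mem_iff_of_index_two h, Subgroup.inv_mem_iff, Subgroup.inv_mem_iff]
    tauto

theorem exists_two [Finite Q] {A S : Subgroup Q} (hS : IsPGroup 2 ↥S) (hSA : S ≤ A) (hi : A.index % 4 = 3) :
    ∃ x, x ∉ A ∧ ⁅S, S⁆ ≤ cj x A := by
  classical
  by_contra hcon
  push Not at hcon
  -- the orbits of `S` on `Q/A`
  have hst : ∀ x : Q, ∀ s : ↥S, s ∈ MulAction.stabilizer ↥S (x : Q ⧸ A) ↔ (s : Q) ∈ cj x A := by
    intro x s
    rw [MulAction.mem_stabilizer_iff, mem_cj]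
    show ((s : Q) • (x : Q ⧸ A)) = _ ↔ _
    rw [MulAction.Quotient.smul_coe, smul_eq_mul, eq_comm, QuotientGroup.eq, mul_assoc]
  have hidx : ∀ c : Q ⧸ A, Nat.card (MulAction.orbit ↥S c) = (MulAction.stabilizer ↥S c).index := fun c =>
    (Nat.card_congr (MulAction.orbitEquivQuotientStabilizer ↥S c))
  have key : ∀ c : Q ⧸ A, c ≠ ((1 : Q) : Q ⧸ A) → 4 ∣ Nat.card (MulAction.orbit ↥S c) := by
    intro c hc
    obtain ⟨x, rfl⟩ := QuotientGroup.mk_surjective c
    have hx : x ∉ A := by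
      intro hx
      apply hc
      rw [eq_comm, QuotientGroup.eq, inv_one, one_mul]
      exact hx
    obtain ⟨k, hk⟩ := hS.index (MulAction.stabilizer ↥S (x : Q ⧸ A))
    rw [hidx, hk]
    have h2 : 2 ≤ k := by
      by_contra hk2
      apply hcon x hx
      rw [Subgroup.commutator_le]
      intro a ha b hb
      have h3 : (MulAction.stabilizer ↥S (x : Q ⧸ A)).index = 1 ∨ (MulAction.stabilizer ↥S (x : Q ⧸ A)).index = 2 := by
        rw [hk]
        interval_cases k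
        · left; rfl
        · right; rfl
      have h4 := comm_mem_of_index h3 ⟨a, ha⟩ ⟨b, hb⟩
      rw [hst] at h4
      exact h4
    exact pow_dvd_pow 2 h2
  have h1 : ∀ s : ↥S, s • ((1 : Q) : Q ⧸ A) = ((1 : Q) : Q ⧸ A) := by
    intro s
    have := (hst 1 s).2 (by rw [mem_cj, inv_one, one_mul, mul_one]; exact hSA s.2)
    exact MulAction.mem_stabilizer_iff.1 this
  have hone : Nat.card (MulAction.orbit ↥S ((1 : Q) : Q ⧸ A)) = 1 := by
    rw [hidx, Subgroup.index_eq_one, Subgroup.eq_top_iff']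
    intro s
    exact MulAction.mem_stabilizer_iff.2 (h1 s)
  let _ : Fintype (Quotient (MulAction.orbitRel ↥S (Q ⧸ A))) := Fintype.ofFinite _
  have hcard : A.index = ∑ ω : Quotient (MulAction.orbitRel ↥S (Q ⧸ A)), Nat.card (MulAction.orbit ↥S ω.out) := by
    have h2 : A.index = Nat.card (Σ ω : Quotient (MulAction.orbitRel ↥S (Q ⧸ A)), MulAction.orbit ↥S ω.out) :=
      Nat.card_congr (MulAction.selfEquivSigmaOrbits ↥S (Q ⧸ A))
    rw [h2, Nat.card_sigma]
  set ω₀ : Quotient (MulAction.orbitRel ↥S (Q ⧸ A)) := Quotient.mk _ ((1 : Q) : Q ⧸ A) with hω₀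
  have hout : ∀ ω : Quotient (MulAction.orbitRel ↥S (Q ⧸ A)), ω.out = ((1 : Q) : Q ⧸ A) ↔ ω = ω₀ := by
    intro ω
    constructor
    · intro h
      rw [hω₀, ← h, Quotient.out_eq]
    · rintro rfl
      have h2 : (MulAction.orbitRel ↥S (Q ⧸ A)).r (Quotient.out ω₀) ((1 : Q) : Q ⧸ A) :=
        Quotient.exact (Quotient.out_eq ω₀)
      obtain ⟨s, hs⟩ := h2
      rw [← hs]
      exact h1 s
  rw [← Finset.add_sum_erase Finset.univ _ (Finset.mem_univ ω₀), (hout ω₀).2 rfl, hone] at hcard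
  have h4 : 4 ∣ ∑ ω ∈ Finset.univ.erase ω₀, Nat.card (MulAction.orbit ↥S ω.out) := by
    refine Finset.dvd_sum fun ω hω => key _ ?_
    intro h
    exact (Finset.mem_erase.1 hω).1 ((hout ω).1 h)
  omega

/-- `O_p(M)` under an injective homomorphism -/
theorem core_map {G H : Type*} [Group G] [Group H] (p : ℕ) (f : G →* H) (hf : Function.Injective f) (M : Subgroup G) :
    ((Cfsg.pCore p ↥M).map M.subtype).map f = (Cfsg.pCore p ↥(M.map f)).map (M.map f).subtype := by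
  rw [← Cfsg.Agent.Lib.Cores.map_equiv_pCore (M.equivMapOfInjective f hf) p, Subgroup.map_map, Subgroup.map_map]
  rfl

theorem core_eq {G : Type*} [Group G] (p : ℕ) {M M' : Subgroup G} (h : M = M') :
    (Cfsg.pCore p ↥M).map M.subtype = (Cfsg.pCore p ↥M').map M'.subtype := by
  subst h; rfl

/-- the property used of `D₄(2)` -/
def Prop2 (G : Type*) [Group G] : Prop :=
  ∃ S : Subgroup G, IsPGroup 2 ↥S ∧ ¬ 2 ∣ S.index ∧ ∀ M : Subgroup G, ⁅S, S⁆ ≤ M → M ≠ ⊤ →
    ((Cfsg.pCore 2 ↥M).map M.subtype ≠ ⊥ →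
      ∀ g : G, (∀ k ∈ (Cfsg.pCore 2 ↥M).map M.subtype, g * k * g⁻¹ ∈ (Cfsg.pCore 2 ↥M).map M.subtype) → g ∈ M) →
    ∃ g, ∀ s ∈ S, g * s * g⁻¹ ∈ M

theorem prop2_D4 : Prop2 ↥(Cfsg.Lie.chevD4.group (ZMod 2)) := by
  have hK : ∀ t : ZMod 2, t = 0 ∨ t = 1 := by decide
  refine ⟨UU (ZMod 2), U_pgroup, U_index, fun M hM hne hN => ?_⟩
  have h1 := core_ne hK hM hne
  have h2 : (Cfsg.pCore 2 ↥M).map M.subtype ≠ ⊥ := by
    rw [Ne, Subgroup.map_eq_bot_iff_of_injective _ (Subgroup.subtype_injective _)]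
    exact h1
  obtain ⟨g, hg⟩ := sylow_le h2 (fun g hg => hN h2 g fun k hk => (Subgroup.mem_normalizer_iff.1 hg k).1 hk)
  exact ⟨g, fun s hs => hg (cj_mem hs)⟩

theorem Prop2.of_equiv {G H : Type*} [Group G] [Group H] (h : Prop2 H) (f : G ≃* H) : Prop2 G := by
  obtain ⟨S, h1, h2, h3⟩ := h
  have hmem : ∀ (M : Subgroup G) (x : H), x ∈ M.map f.toMonoidHom ↔ f.symm x ∈ M := fun M x => Subgroup.mem_map_equiv
  refine ⟨S.comap f.toMonoidHom, h1.comap_of_injective _ f.injective, ?_, fun M hM hne hN => ?_⟩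
  · rw [Subgroup.index_comap_of_surjective _ f.surjective]
    exact h2
  · have hA1 : ⁅S, S⁆ ≤ M.map f.toMonoidHom := by
      rw [Subgroup.commutator_le]
      intro a ha b hb
      rw [hmem]
      have h4 : ⁅f.symm a, f.symm b⁆ ∈ M := by
        refine hM (Subgroup.commutator_mem_commutator ?_ ?_)
        · rw [Subgroup.mem_comap]
          show f (f.symm a) ∈ S
          rw [MulEquiv.apply_symm_apply]; exact ha
        · rw [Subgroup.mem_comap]
          show f (f.symm b) ∈ S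
          rw [MulEquiv.apply_symm_apply]; exact hb
      rw [← map_commutatorElement] at h4
      exact h4
    have hA2 : M.map f.toMonoidHom ≠ ⊤ := by
      intro h4
      apply hne
      rw [Subgroup.eq_top_iff']
      intro x
      have h5 : f x ∈ M.map f.toMonoidHom := by rw [h4]; exact Subgroup.mem_top _
      rw [hmem, MulEquiv.symm_apply_apply] at h5
      exact h5
    obtain ⟨g, hg⟩ := h3 (M.map f.toMonoidHom) hA1 hA2 (by
      rw [← core_map 2 f.toMonoidHom f.injective M]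
      intro h4 g hg
      rw [hmem]
      refine hN (fun h5 => h4 (by rw [h5, Subgroup.map_bot])) _ fun k hk => ?_
      have h5 := hg (f k) ⟨k, hk, rfl⟩
      rw [hmem] at h5
      rw [map_mul, map_mul, map_inv, MulEquiv.symm_apply_apply] at h5
      exact h5)
    refine ⟨f.symm g, fun s hs => ?_⟩
    have h4 := hg (f s) hs
    rw [hmem, map_mul, map_mul, map_inv, MulEquiv.symm_apply_apply] at h4
    exact h4

/-- **The contradiction.** -/
theorem kill_of [Finite Q] {A : Subgroup Q} {Γ : Subgroup (MulAut Q)} (h : EPT A Γ) (hi : A.index % 4 = 3)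
    (hself : ∀ S : Sylow 2 Q, Subgroup.normalizer ((S : Subgroup Q) : Set Q) ≤ S) (hA : Prop2 ↥A) : False := by
  obtain ⟨S₀, hS₀, hS₀i, hP⟩ := hA
  set S : Subgroup Q := S₀.map A.subtype with hS
  have hSA : S ≤ A := Subgroup.map_subtype_le S₀
  have hSp : IsPGroup 2 ↥S := hS₀.map _
  have hSi : ¬ 2 ∣ S.index := by
    rw [hS, Subgroup.index_map_subtype]
    intro h2
    rcases (Nat.prime_two.dvd_mul).1 h2 with h3 | h3
    · exact hS₀i h3
    · omega
  let P : Sylow 2 Q := hSp.toSylow hSi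
  have hPS : (P : Subgroup Q) = S := rfl
  -- `S` is in one conjugate of `A` only
  have hone : ∀ x, S ≤ cj x A → x ∈ A := by
    intro x hx
    have hS' : (cj x⁻¹ S) ≤ A := by
      intro s hs
      rw [mem_cj, inv_inv] at hs
      have h1 := mem_cj.1 (hx hs)
      have h2 : x⁻¹ * (x * s * x⁻¹) * x = s := by group
      rwa [h2] at h1
    have hi' : ¬ 2 ∣ (S.subgroupOf A).index := by
      intro h2
      apply hSi
      rw [← Subgroup.relIndex_mul_index hSA]
      exact h2.mul_right _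
    have hi'' : ¬ 2 ∣ ((cj x⁻¹ S).subgroupOf A).index := by
      have hc : Nat.card ↥(cj x⁻¹ S) = Nat.card ↥S :=
        Nat.card_congr (S.equivMapOfInjective _ (MulAut.conj x⁻¹).injective).symm.toEquiv
      have e1 := Subgroup.card_mul_index ((cj x⁻¹ S).subgroupOf A)
      have e2 := Subgroup.card_mul_index (S.subgroupOf A)
      have e3 : Nat.card ↥((cj x⁻¹ S).subgroupOf A) = Nat.card ↥(cj x⁻¹ S) :=
        Nat.card_congr (Subgroup.subgroupOfEquivOfLe hS').toEquiv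
      have e4 : Nat.card ↥(S.subgroupOf A) = Nat.card ↥S := Nat.card_congr (Subgroup.subgroupOfEquivOfLe hSA).toEquiv
      rw [e3, hc] at e1
      rw [e4, ← e1] at e2
      have e5 : 0 < Nat.card ↥S := Nat.card_pos
      rw [← Nat.eq_of_mul_eq_mul_left e5 e2]
      exact hi'
    let P1 : Sylow 2 ↥A := IsPGroup.toSylow (P := S.subgroupOf A)
      (hSp.comap_of_injective A.subtype Subtype.val_injective) hi'
    let P2 : Sylow 2 ↥A := IsPGroup.toSylow (P := (cj x⁻¹ S).subgroupOf A)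
      ((hSp.map _).comap_of_injective A.subtype Subtype.val_injective) hi''
    obtain ⟨a, ha⟩ := MulAction.exists_smul_eq ↥A P2 P1
    have hn : (a : Q) * x⁻¹ ∈ Subgroup.normalizer ((P : Subgroup Q) : Set Q) := by
      have key : ∀ s ∈ S, (a : Q) * x⁻¹ * s * ((a : Q) * x⁻¹)⁻¹ ∈ S := by
        intro s hs
        have h1 : x⁻¹ * s * x ∈ cj x⁻¹ S := by
          rw [mem_cj]
          have : x⁻¹⁻¹ * (x⁻¹ * s * x) * x⁻¹ = s := by group
          rw [this]; exact hs
        have h2 : a * ⟨x⁻¹ * s * x, hS' h1⟩ * a⁻¹ ∈ (P1 : Subgroup ↥A) := by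
          rw [← ha, Sylow.coe_subgroup_smul]
          exact ⟨⟨x⁻¹ * s * x, hS' h1⟩, h1, rfl⟩
        have h3 : (a : Q) * (x⁻¹ * s * x) * (a : Q)⁻¹ ∈ S := h2
        have h4 : (a : Q) * x⁻¹ * s * ((a : Q) * x⁻¹)⁻¹ = (a : Q) * (x⁻¹ * s * x) * (a : Q)⁻¹ := by group
        rw [h4]; exact h3
      have h5 : cj ((a : Q) * x⁻¹) S = S := by
        refine Subgroup.eq_of_le_of_card_ge ?_ ?_
        · rintro _ ⟨s, hs, rfl⟩
          exact key s hs
        · exact (Nat.card_congr (S.equivMapOfInjective _ (MulAut.conj _).injective).toEquiv).le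
      rw [hPS, Subgroup.mem_normalizer_iff]
      intro s
      refine ⟨key s, fun hs => ?_⟩
      rw [← h5] at hs
      rw [mem_cj] at hs
      have h6 : ((a : Q) * x⁻¹)⁻¹ * ((a : Q) * x⁻¹ * s * ((a : Q) * x⁻¹)⁻¹) * ((a : Q) * x⁻¹) = s := by group
      rwa [h6] at hs
    have h7 : (a : Q) * x⁻¹ ∈ A := hSA (hself P hn)
    have h8 : x⁻¹ ∈ A := (Subgroup.mul_mem_cancel_left A a.2).1 h7
    exact A.inv_mem_iff.1 h8
  obtain ⟨x, hx, hxc⟩ := exists_two hSp hSA hi
  set M : Subgroup ↥A := (A ⊓ cj x A).subgroupOf A with hM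
  have hMm : M.map A.subtype = A ⊓ cj x A := by
    rw [hM, Subgroup.subgroupOf_map_subtype, inf_eq_left.2 inf_le_left]
  have hcore : ((Cfsg.pCore 2 ↥M).map M.subtype).map A.subtype =
      (Cfsg.pCore 2 ↥(A ⊓ cj x A : Subgroup Q)).map (A ⊓ cj x A : Subgroup Q).subtype := by
    rw [core_map 2 A.subtype (Subgroup.subtype_injective _) M, core_eq 2 hMm]
  have hB1 : ⁅S₀, S₀⁆ ≤ M := by
    rw [Subgroup.commutator_le]
    intro a ha b hb
    rw [hM, Subgroup.mem_subgroupOf]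
    refine ⟨SetLike.coe_mem _, hxc ?_⟩
    have h1 : ((⁅a, b⁆ : ↥A) : Q) = ⁅(a : Q), (b : Q)⁆ := rfl
    rw [h1]
    exact Subgroup.commutator_mem_commutator ⟨a, ha, rfl⟩ ⟨b, hb, rfl⟩
  have hB2 : M ≠ ⊤ := by
    intro h1
    apply hx
    apply hone
    intro s hs
    have h2 : (⟨s, hSA hs⟩ : ↥A) ∈ M := by rw [h1]; exact Subgroup.mem_top _
    exact (Subgroup.mem_inf.1 (Subgroup.mem_subgroupOf.1 h2)).2
  obtain ⟨g, hg⟩ := hP M hB1 hB2 (by
    intro h1 g hg
    rw [hM, Subgroup.mem_subgroupOf]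
    refine ⟨g.2, ?_⟩
    haveI := Cfsg.Agent.Lib.Cores.pCore_characteristic (G := ↥(A ⊓ cj x A : Subgroup Q)) 2
    refine h.norm_char hx (Cfsg.pCore 2 ↥(A ⊓ cj x A : Subgroup Q)) ?_ g.2 ?_
    · intro h2
      apply h1
      have h3 : ((Cfsg.pCore 2 ↥M).map M.subtype).map A.subtype = ⊥ := by
        rw [hcore, h2, Subgroup.map_bot]
      rwa [Subgroup.map_eq_bot_iff_of_injective _ (Subgroup.subtype_injective _)] at h3
    · rw [← hcore]
      rintro _ ⟨k, hk, rfl⟩
      exact ⟨_, hg k hk, rfl⟩)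
  -- `S ≤ A ∩ A^{g⁻¹x}`
  have h1 : S ≤ cj ((g : Q)⁻¹ * x) A := by
    rintro _ ⟨s, hs, rfl⟩
    have h2 : (g : Q) * s * (g : Q)⁻¹ ∈ A ⊓ cj x A := hg s hs
    have h3 := mem_cj.1 (Subgroup.mem_inf.1 h2).2
    rw [mem_cj]
    have h4 : ((g : Q)⁻¹ * x)⁻¹ * (A.subtype s) * ((g : Q)⁻¹ * x) = x⁻¹ * ((g : Q) * s * (g : Q)⁻¹) * x := by
      show ((g : Q)⁻¹ * x)⁻¹ * (s : Q) * ((g : Q)⁻¹ * x) = _
      group
    rw [h4]; exact h3
  have h5 := hone _ h1
  exact hx ((Subgroup.mul_mem_cancel_left A (A.inv_mem g.2)).1 h5)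

end

end Cfsg.Agent.H286.EP
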