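import Cfsg.Agent.H284.EP.PS

/-!
# The prime Sylow criterion for `A` with a `Γ`-invariant normal subgroup `N` (after helper284, helper67)

`ps_norm` : `Y ≤ N` of prime order `s`, self-centralising in `N`, not self-normalising in `N`, contained in `A^c`,
`c ∉ A`. If no Sylow `l`-subgroup of `N` is normalised by `Y` (`l ≠ s`), some `u ∈ A ∩ A^c ∩ N` normalises `Y`, `u ∉ Y`.
-/

set_option autoImplicit false
set_option linter.unusedSectionVars false

namespace Cfsg.Agent.H286.EP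

open Cfsg.Agent.H284 Subgroup

section

variable {Q : Type*} [Group Q] [Finite Q] {A N : Subgroup Q} {Γ : Subgroup (MulAut Q)}

/-- the socle of `A` is `Γ`-invariant -/
theorem soc_inv (h : EPT A Γ) (hNA : N ≤ A) (hN : ∀ a ∈ A, ∀ n ∈ N, a * n * a⁻¹ ∈ N)
    (hC : ∀ a ∈ A, (∀ n ∈ N, a * n = n * a) → a = 1) (hs : IsSimpleGroup ↥N) :
    ∀ σ ∈ Γ, ∀ n ∈ N, σ n ∈ N := by
  intro σ hσ
  set N' : Subgroup Q := N.map σ.toMonoidHom with hN'
  have hmem : ∀ n ∈ N, σ n ∈ N' := fun n hn => ⟨n, hn, rfl⟩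
  have hN'A : N' ≤ A := by
    rintro _ ⟨n, hn, rfl⟩
    exact (h.inv σ hσ n).2 (hNA hn)
  have hN'n : ∀ a ∈ A, ∀ n ∈ N', a * n * a⁻¹ ∈ N' := by
    rintro a ha _ ⟨n, hn, rfl⟩
    have h1 : σ⁻¹ a ∈ A := (h.inv _ (inv_mem hσ) a).2 ha
    have h2 := hmem _ (hN _ h1 n hn)
    have h3 : σ (σ⁻¹ a) = a := MulAut.apply_inv_self _ _ _
    rw [map_mul, map_mul, map_inv, h3] at h2
    exact h2
  have hn : ((N ⊓ N').subgroupOf N).Normal := ⟨by
    rintro ⟨n, hn'⟩ hn ⟨a, ha⟩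
    exact ⟨N.mul_mem (N.mul_mem ha hn') (N.inv_mem ha), hN'n a (hNA ha) n hn.2⟩⟩
  rcases hn.eq_bot_or_eq_top with h4 | h4
  · exfalso
    have hcomm : ∀ n' ∈ N', n' = 1 := by
      intro n' hn'
      apply hC n' (hN'A hn')
      intro n hn
      have h5 : n' * n * n'⁻¹ * n⁻¹ ∈ N ⊓ N' := by
        refine ⟨N.mul_mem (hN _ (hN'A hn') n hn) (N.inv_mem hn), ?_⟩
        have : n' * n * n'⁻¹ * n⁻¹ = n' * (n * n'⁻¹ * n⁻¹) := by group
        rw [this]
        exact N'.mul_mem hn' (hN'n n (hNA hn) _ (N'.inv_mem hn'))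
      have h6 : (⟨n' * n * n'⁻¹ * n⁻¹, h5.1⟩ : ↥N) ∈ (N ⊓ N').subgroupOf N := h5
      rw [h4, mem_bot] at h6
      have h7 : n' * n * n'⁻¹ * n⁻¹ = 1 := congrArg Subtype.val h6
      rw [mul_inv_eq_one, mul_inv_eq_iff_eq_mul] at h7
      exact h7
    obtain ⟨n, hn1⟩ := exists_ne (1 : ↥N)
    have h5 := hcomm _ (hmem n n.2)
    have h6 : (n : Q) = 1 := by
      apply σ.injective
      rw [h5, map_one]
    exact hn1 (Subtype.ext h6)
  · have h5 : N ≤ N' := by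
      intro x hx
      have h6 : (⟨x, hx⟩ : ↥N) ∈ (N ⊓ N').subgroupOf N := by rw [h4]; exact mem_top _
      exact (mem_inf.1 h6).2
    have h6 : Nat.card ↥N' = Nat.card ↥N :=
      (Nat.card_congr (N.equivMapOfInjective σ.toMonoidHom σ.injective).toEquiv).symm
    have h7 : N = N' := by
      apply SetLike.coe_injective
      exact Set.eq_of_subset_of_ncard_le h5 (by
        rw [← Nat.card_coe_set_eq, ← Nat.card_coe_set_eq]
        exact h6.le) (Set.toFinite _)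
    intro n hn
    rw [h7]
    exact hmem n hn

theorem inf_inv' (h : EPT A Γ) {x : Q} {σ : MulAut Q} (hσ : σ ∈ Γ) (hx : x⁻¹ * σ x ∈ A) {k : Q}
    (hk : k ∈ A ⊓ cj x A) : σ k ∈ A ⊓ cj x A := by
  refine mem_inf.2 ⟨(h.inv σ hσ k).2 hk.1, ?_⟩
  have h1 := mem_cj.1 hk.2
  rw [mem_cj]
  have e : x⁻¹ * σ k * x = x⁻¹ * σ x * σ (x⁻¹ * k * x) * (x⁻¹ * σ x)⁻¹ := by
    rw [map_mul, map_mul, map_inv]
    group
  rw [e]
  exact mul_mem (mul_mem hx ((h.inv σ hσ _).2 h1)) (inv_mem hx)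

/-- normalisers in `A` -/
theorem norm_mem (h : EPT A Γ) {x : Q} (hx : x ∉ A) {K : Subgroup Q} (hK : K ≤ A ⊓ cj x A)
    (hKn : ∀ σ ∈ Γ, x⁻¹ * σ x ∈ A → ∀ k ∈ K, σ k ∈ K) (hne : K ≠ ⊥) {a : Q} (ha : a ∈ A)
    (haK : ∀ k ∈ K, a * k * a⁻¹ ∈ K) : a ∈ cj x A := by
  have h1 := h.norm x hx K hK hKn hne (MulAut.conj a) ((h.conj a).2 ha) (fun k hk => by
    rw [MulAut.conj_apply]; exact haK k hk)
  rw [MulAut.conj_apply] at h1
  rw [mem_cj]
  have h2 : x⁻¹ * a * x = x⁻¹ * (a * x * a⁻¹) * a := by group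
  rw [h2]
  exact A.mul_mem h1 ha

/-- **(PS)** for a normal subgroup -/
theorem ps_norm (h : EPT A Γ) (hNA : N ≤ A) (hNΓ : ∀ σ ∈ Γ, ∀ n ∈ N, σ n ∈ N)
    {s : ℕ} (hs : s.Prime) {Y : Subgroup Q} (hYN : Y ≤ N) (hY : Nat.card Y = s)
    (hYc : ∀ a ∈ N, (∀ y ∈ Y, a * y = y * a) → a ∈ Y) {w : Q} (hwN : w ∈ N) (hwY : ∀ y ∈ Y, w * y * w⁻¹ ∈ Y)
    (hwn : w ∉ Y)
    (hfrob : ∀ l, l.Prime → l ∣ Nat.card N → l ≠ s → ∀ R : Subgroup Q, R ≤ N → IsPGroup l R →
      Nat.card R = l ^ (Nat.card N).factorization l → Nat.card R ≡ 1 [MOD s] →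
      (∀ P : Subgroup Q, P ≤ N → IsPGroup l P → R ≤ P → P = R) → (∀ y ∈ Y, ∀ r ∈ R, y * r * y⁻¹ ∈ R) → False)
    {c : Q} (hYc' : Y ≤ cj c A) (hcA : c ∉ A) :
    ∃ u ∈ A ⊓ cj c A, u ∈ N ∧ (∀ y ∈ Y, u * y * u⁻¹ ∈ Y) ∧ u ∉ Y := by
  have := Fact.mk hs
  by_contra hcon
  set M0 := A ⊓ cj c A ⊓ N with hM0
  have hno : ∀ u ∈ M0, (∀ y ∈ Y, u * y * u⁻¹ ∈ Y) → u ∈ Y := by
    intro u hu hun
    by_contra huY
    exact hcon ⟨u, (mem_inf.1 hu).1, (mem_inf.1 hu).2, hun, huY⟩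
  have hM0n : ∀ σ ∈ Γ, c⁻¹ * σ c ∈ A → ∀ k ∈ M0, σ k ∈ M0 := fun σ hσ hc k hk =>
    mem_inf.2 ⟨inf_inv' h hσ hc (mem_inf.1 hk).1, hNΓ σ hσ k (mem_inf.1 hk).2⟩
  have hYM : Y ≤ M0 := le_inf (le_inf (hYN.trans hNA) hYc') hYN
  have hYp : IsPGroup s Y := IsPGroup.of_card (n := 1) (by rw [hY, pow_one])
  have hYab : ∀ a ∈ Y, ∀ b ∈ Y, a * b = b * a := by
    have := isCyclic_of_prime_card hY
    have hc : ∀ a b : Y, a * b = b * a := fun a b => (IsCyclic.commGroup (α := Y)).mul_comm a b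
    exact fun a ha b hb => Subtype.ext_iff.1 (hc ⟨a, ha⟩ ⟨b, hb⟩)
  have hYM' : IsPGroup s (Y.subgroupOf M0) := hYp.of_equiv (Subgroup.subgroupOfEquivOfLe hYM).symm
  obtain ⟨P, hP⟩ := hYM'.exists_le_sylow
  have hPY : (P : Subgroup M0).map M0.subtype = Y := by
    by_contra hne
    obtain ⟨y, hy1, hy2, hy3⟩ := exists_norm_lt hs (P.isPGroup'.map M0.subtype) (R := Y) (by
      intro y hy
      exact ⟨⟨y, hYM hy⟩, hP hy, rfl⟩) hne
    apply hy2
    obtain ⟨z, _, rfl⟩ := hy1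
    exact hno _ z.2 hy3
  have hPmem : ∀ y : M0, y ∈ (P : Subgroup M0) ↔ (y : Q) ∈ Y := by
    intro y
    constructor
    · intro hy
      rw [← hPY]
      exact ⟨y, hy, rfl⟩
    · intro hy
      rw [← hPY] at hy
      obtain ⟨z, hz, e⟩ := hy
      have : z = y := Subtype.ext e
      rwa [← this]
  have hPc : Subgroup.normalizer ((P : Subgroup M0) : Set M0) ≤ Subgroup.centralizer ((P : Subgroup M0) : Set M0) := by
    intro y hy
    rw [Subgroup.mem_centralizer_iff]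
    rw [Subgroup.mem_normalizer_iff] at hy
    have h1 : (y : Q) ∈ Y := by
      apply hno _ y.2
      intro k hk
      exact (hPmem _).1 ((hy ⟨k, hYM hk⟩).1 ((hPmem _).2 hk))
    intro z hz
    apply Subtype.ext
    exact hYab _ ((hPmem z).1 hz) _ h1
  obtain ⟨L', hL'n, hcomp, hnd, hlL'⟩ : ∃ L' : Subgroup M0, L'.Normal ∧ Subgroup.IsComplement' L' (P : Subgroup M0) ∧
      ¬ s ∣ Nat.card L' ∧ ∀ x : M0, ∀ l : ℕ, l.Prime → l ≠ s → (∃ k : ℕ, x ^ (l ^ k) = 1) → x ∈ L' := by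
    refine ⟨(MonoidHom.transferSylow P hPc).ker, MonoidHom.normal_ker _,
      MonoidHom.ker_transferSylow_isComplement' P hPc, MonoidHom.not_dvd_card_ker_transferSylow P hPc, ?_⟩
    rintro x l hl hls ⟨k, hk⟩
    rw [MonoidHom.mem_ker]
    have h1 : orderOf (MonoidHom.transferSylow P hPc x) ∣ l ^ k := by
      apply orderOf_dvd_of_pow_eq_one
      rw [← map_pow, hk, map_one]
    obtain ⟨j, hj⟩ := P.isPGroup' (MonoidHom.transferSylow P hPc x)
    have h2 : orderOf (MonoidHom.transferSylow P hPc x) ∣ s ^ j := orderOf_dvd_of_pow_eq_one hj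
    have h3 : Nat.Coprime (l ^ k) (s ^ j) := Nat.Coprime.pow _ _ ((Nat.coprime_primes hl hs).2 hls)
    have h4 : orderOf (MonoidHom.transferSylow P hPc x) ∣ 1 := by
      rw [← h3]
      exact Nat.dvd_gcd h1 h2
    exact orderOf_eq_one_iff.1 (Nat.dvd_one.1 h4)
  by_cases hbot : L' = ⊥
  · -- `M0 = Y`
    rw [hbot, Subgroup.isComplement'_bot_left] at hcomp
    have hM0Y : M0 ≤ Y := by
      intro m hm
      have : (⟨m, hm⟩ : M0) ∈ (P : Subgroup M0) := by rw [hcomp]; exact mem_top _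
      exact (hPmem _).1 this
    have hM0Y' : M0 = Y := le_antisymm hM0Y hYM
    have h1 : w ∈ cj c A := by
      refine norm_mem h hcA (K := M0) inf_le_left hM0n ?_ (hNA hwN) ?_
      · rw [hM0Y']
        intro e
        rw [e, Subgroup.card_bot] at hY
        exact hs.one_lt.ne hY
      · rw [hM0Y']
        exact hwY
    apply hwn
    apply hM0Y
    exact mem_inf.2 ⟨mem_inf.2 ⟨hNA hwN, h1⟩, hwN⟩
  · set L := L'.map M0.subtype with hL
    have hLM : L ≤ M0 := by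
      rintro _ ⟨y, _, rfl⟩
      exact y.2
    have hLn : ∀ m ∈ M0, ∀ a ∈ L, m * a * m⁻¹ ∈ L := by
      rintro m hm _ ⟨a, ha, rfl⟩
      exact ⟨⟨m, hm⟩ * a * ⟨m, hm⟩⁻¹, hL'n.conj_mem a ha _, rfl⟩
    have hLY : ∀ a ∈ L, a ∈ Y → a = 1 := by
      rintro _ ⟨a, ha, rfl⟩ haY
      have h1 : a ∈ (P : Subgroup M0) := (hPmem a).2 haY
      have h2 := hcomp.disjoint
      rw [Subgroup.disjoint_def] at h2
      rw [h2 ha h1, map_one]
    have hLne : L ≠ ⊥ := by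
      rw [hL, Ne, Subgroup.map_eq_bot_iff_of_injective _ M0.subtype_injective]
      exact hbot
    have hfixL : ∀ a ∈ L, (∀ y ∈ Y, y * a = a * y) → a = 1 := by
      intro a ha hya
      apply hLY a ha
      apply hYc a (mem_inf.1 (hLM ha)).2
      intro y hy
      exact (hya y hy).symm
    have hnil : Group.IsNilpotent L := (fpf_sub (L := L) hs hY (fun y hy => hLn y (hYM hy)) hfixL).1 hLne
    have hcardL : Nat.card L ≠ 1 := fun e => hLne (Subgroup.card_eq_one.1 e)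
    obtain ⟨l, hl, hld⟩ := Nat.exists_prime_and_dvd hcardL
    have := Fact.mk hl
    have hcLL' : Nat.card L = Nat.card L' := (Nat.card_congr (L'.equivMapOfInjective _ M0.subtype_injective).toEquiv).symm
    have hls : l ≠ s := by
      rintro rfl
      rw [hcLL'] at hld
      exact hnd hld
    -- `l`-elements of `M0` are in `L`
    have hlL : ∀ x ∈ M0, (∃ k : ℕ, x ^ (l ^ k) = 1) → x ∈ L := by
      rintro x hx ⟨k, hk⟩
      exact ⟨⟨x, hx⟩, hlL' _ l hl hls ⟨k, Subtype.ext hk⟩, rfl⟩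
    obtain ⟨R, hR, hRp⟩ := exists_lpart hnil hl
    have hR' : ∀ x, x ∈ R ↔ x ∈ M0 ∧ ∃ k : ℕ, x ^ (l ^ k) = 1 := by
      intro x
      rw [hR]
      exact ⟨fun hx => ⟨hLM hx.1, hx.2⟩, fun hx => ⟨hlL x hx.1 hx.2, hx.2⟩⟩
    have hRne : R ≠ ⊥ := by
      intro e
      obtain ⟨d, hd⟩ := exists_prime_orderOf_dvd_card' l hld
      have h2 : (d : Q) ∈ R := (hR _).2 ⟨d.2, 1, by
        rw [pow_one]
        have := pow_orderOf_eq_one d
        rw [hd] at this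
        exact Subtype.ext_iff.1 this⟩
      rw [e, mem_bot] at h2
      have h3 : d = 1 := Subtype.ext h2
      rw [h3, orderOf_one] at hd
      exact hl.one_lt.ne hd
    have hRN : R ≤ N := fun x hx => (mem_inf.1 ((hR' x).1 hx).1).2
    have hmax : ∀ P : Subgroup Q, P ≤ N → IsPGroup l P → R ≤ P → P = R := by
      intro P hPN hPp hRP
      by_contra hcon
      obtain ⟨y, hyP, hyR, hyn⟩ := exists_norm_lt hl hPp hRP hcon
      apply hyR
      have h1 : y ∈ cj c A := by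
        refine norm_mem h hcA (K := R) (fun k hk => (mem_inf.1 ((hR' k).1 hk).1).1) ?_ hRne (hNA (hPN hyP)) hyn
        intro σ hσ hcσ k hk
        obtain ⟨h1, l', hl'⟩ := (hR' k).1 hk
        exact (hR' _).2 ⟨hM0n σ hσ hcσ k h1, l', by rw [← map_pow, hl', map_one]⟩
      obtain ⟨k, hk⟩ := hPp ⟨y, hyP⟩
      exact (hR' y).2 ⟨mem_inf.2 ⟨mem_inf.2 ⟨hNA (hPN hyP), h1⟩, hPN hyP⟩, k, Subtype.ext_iff.1 hk⟩
    -- `R` is a Sylow subgroup of `N`
    have hRA' : IsPGroup l (R.subgroupOf N) := hRp.of_equiv (Subgroup.subgroupOfEquivOfLe hRN).symm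
    obtain ⟨P', hP'⟩ := hRA'.exists_le_sylow
    have hPR : (P' : Subgroup N).map N.subtype = R := by
      apply hmax
      · rintro _ ⟨y, _, rfl⟩
        exact y.2
      · exact P'.isPGroup'.map _
      · intro y hy
        exact ⟨⟨y, hRN hy⟩, hP' hy, rfl⟩
    have hcardR : Nat.card R = l ^ (Nat.card N).factorization l := by
      rw [← hPR, ← P'.card_eq_multiplicity]
      exact (Nat.card_congr ((P' : Subgroup N).equivMapOfInjective _ N.subtype_injective).toEquiv).symm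
    have hRY : ∀ y ∈ Y, ∀ a ∈ R, y * a * y⁻¹ ∈ R := by
      intro y hy a ha
      rw [hR'] at ha ⊢
      obtain ⟨ha1, k, hk⟩ := ha
      refine ⟨M0.mul_mem (M0.mul_mem (hYM hy) ha1) (M0.inv_mem (hYM hy)), k, ?_⟩
      rw [conj_pow, hk, mul_one, mul_inv_cancel]
    have hfix := (fpf_sub hs hY (L := R) hRY (by
      intro a ha hya
      apply hLY a ((hR a).1 ha).1
      apply hYc a (hRN ha)
      intro y hy
      exact (hya y hy).symm)).2
    refine hfrob l hl ?_ hls R hRN hRp hcardR hfix hmax hRY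
    exact hld.trans (Subgroup.card_dvd_of_le (hLM.trans inf_le_right))

end

end Cfsg.Agent.H286.EP
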