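import Mathlib

/-!
# Polynomials in an element of order 7: certificates (helper286, S3499-IV)

Elements `∑ a_i z^i` (`z ^ 7 = 1`) with coefficients `a + b θ`, `θ² = d`, over a field of characteristic `p`; the product
is computed by `conv p d`.
-/

set_option autoImplicit false
set_option linter.unusedSectionVars false

namespace Cfsg.Agent.H286.EP

/-- `a + b θ` -/
def cf {F : Type*} [Field F] (θ : F) (a : ℕ × ℕ) : F := (a.1 : F) + (a.2 : F) * θ

/-- `∑ a_i z^i` -/
def ev {F M : Type*} [Field F] [Ring M] [Algebra F M] (θ : F) (z : M) (a : Fin 7 → ℕ × ℕ) : M :=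
  ∑ i : Fin 7, cf θ (a i) • z ^ (i : ℕ)

/-- the product modulo `p`, `θ² = d`, `z⁷ = 1` -/
def conv (p d : ℕ) (a b : Fin 7 → ℕ × ℕ) : Fin 7 → ℕ × ℕ := fun k =>
  ((∑ i : Fin 7, ((a i).1 * (b (k - i)).1 + d * ((a i).2 * (b (k - i)).2))) % p,
    (∑ i : Fin 7, ((a i).1 * (b (k - i)).2 + (a i).2 * (b (k - i)).1)) % p)

section

variable {F M : Type*} [Field F] [Ring M] [Algebra F M] {p d : ℕ} {θ : F} {z : M}

theorem cast_mod (hp : (p : F) = 0) (n : ℕ) : ((n % p : ℕ) : F) = n := by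
  conv_rhs => rw [← Nat.div_add_mod n p]
  push_cast
  rw [hp, zero_mul, zero_add]

theorem pow_val (hz : z ^ 7 = 1) (i j : Fin 7) : z ^ ((i + j : Fin 7) : ℕ) = z ^ (i : ℕ) * z ^ (j : ℕ) := by
  rw [← pow_add, Fin.val_add]
  conv_rhs => rw [← Nat.div_add_mod ((i : ℕ) + j) 7, pow_add, pow_mul, hz, one_pow, one_mul]

theorem ev_conv (hp : (p : F) = 0) (hθ : θ * θ = d) (hz : z ^ 7 = 1) (a b : Fin 7 → ℕ × ℕ) :
    ev θ z (conv p d a b) = ev θ z a * ev θ z b := by
  have h1 : ∀ k : Fin 7, cf θ (conv p d a b k) = ∑ i : Fin 7, cf θ (a i) * cf θ (b (k - i)) := by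
    intro k
    simp only [cf, conv]
    rw [cast_mod hp, cast_mod hp]
    push_cast
    rw [Finset.sum_mul, ← Finset.sum_add_distrib]
    refine Finset.sum_congr rfl fun i _ => ?_
    linear_combination (-((a i).2 : F) * (b (k - i)).2) * hθ
  simp only [ev, h1]
  rw [Finset.sum_mul_sum]
  simp only [Finset.sum_smul]
  rw [Finset.sum_comm]
  refine Finset.sum_congr rfl fun i _ => ?_
  rw [← Equiv.sum_comp (Equiv.addRight i)]
  refine Finset.sum_congr rfl fun k _ => ?_
  have e : (Equiv.addRight i) k = k + i := rfl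
  rw [e, smul_mul_smul_comm, ← pow_val hz, add_sub_cancel_right, add_comm k i]

/-- `z ↦ z ^ m` permutes the coefficients -/
theorem ev_pow (hz : z ^ 7 = 1) (m : ℕ) (n : Fin 7) (hmn : ∀ i : Fin 7, ((n * i : Fin 7) : ℕ) * m % 7 = i)
    (a : Fin 7 → ℕ × ℕ) : ev θ (z ^ m) a = ev θ z (fun i => a (n * i)) := by
  have hinj : Function.Injective fun i : Fin 7 => n * i := by
    intro i j hij
    have h1 := hmn i
    have h2 := hmn j
    have h3 : n * i = n * j := hij
    rw [h3, h2] at h1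
    exact Fin.ext h1.symm
  have hb : Function.Bijective fun i : Fin 7 => n * i := hinj.bijective_of_finite
  simp only [ev]
  rw [← Equiv.sum_comp (Equiv.ofBijective _ hb)]
  refine Finset.sum_congr rfl fun i _ => ?_
  rw [Equiv.ofBijective_apply, ← pow_mul, mul_comm m]
  congr 1
  conv_lhs => rw [← Nat.div_add_mod (((n * i : Fin 7) : ℕ) * m) 7, pow_add, pow_mul, hz, one_pow, one_mul, hmn]

theorem ev_one (θ : F) (z : M) : ev θ z ![(1, 0), (0, 0), (0, 0), (0, 0), (0, 0), (0, 0), (0, 0)] = 1 := by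
  simp [ev, cf, Fin.sum_univ_succ]

/-- conjugation -/
theorem ev_conj {g h : M} (hg : g * h = 1) (hh : h * g = 1) (a : Fin 7 → ℕ × ℕ) :
    ev θ (g * z * h) a = g * ev θ z a * h := by
  have h1 : ∀ i : ℕ, (g * z * h) ^ i = g * z ^ i * h := by
    intro i
    induction i with
    | zero => rw [pow_zero, pow_zero, mul_one, hg]
    | succ i ih =>
      rw [pow_succ, ih, pow_succ]
      calc g * z ^ i * h * (g * z * h) = g * z ^ i * (h * g) * z * h := by simp only [mul_assoc]
        _ = _ := by rw [hh, mul_one, mul_assoc g]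
  simp only [ev, h1]
  rw [Finset.mul_sum, Finset.sum_mul]
  refine Finset.sum_congr rfl fun i _ => ?_
  rw [mul_smul_comm, smul_mul_assoc]

theorem ev_comm (a : Fin 7 → ℕ × ℕ) : ev θ z a * z = z * ev θ z a := by
  simp only [ev]
  rw [Finset.mul_sum, Finset.sum_mul]
  refine Finset.sum_congr rfl fun i _ => ?_
  rw [mul_smul_comm, smul_mul_assoc, ← pow_succ, ← pow_succ']

end

end Cfsg.Agent.H286.EP
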